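import Mathlib

/-! The two-variable laws of Bandman et al.: fixed points of the recursion, and `SL(2, q)`. -/

set_option autoImplicit false

namespace CF.Bk
open Finset
open scoped MatrixGroups

section
variable {G H : Type*} [Group G] [Group H]

/-- one step of the sequence -/
def st (x y v : G) : G := (x * v * x⁻¹) * (y * v * y⁻¹) * (x * v * x⁻¹)⁻¹ * (y * v * y⁻¹)⁻¹

/-- the sequence -/
def sq (x y : G) (n : ℕ) : G := @Nat.rec (fun _ => G) (x⁻¹ * x⁻¹ * y⁻¹ * x) (fun _ v => st x y v) n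

theorem map_sq (f : G →* H) (x y : G) (n : ℕ) : f (sq x y n) = sq (f x) (f y) n := by
  induction n with
  | zero => simp [sq]
  | succ n ih =>
    exact (by simp [st] : f (st x y (sq x y n)) = st (f x) (f y) (f (sq x y n))).trans (ih ▸ rfl)

/-- some term is a law -/
def Law (G : Type*) [Group G] : Prop := ∃ n, ∀ x y : G, sq x y n = 1

theorem Law.inj (h : Law H) {f : G →* H} (i : Function.Injective f) : Law G :=
  h.imp fun n k x y => i (by rw [map_sq, k, map_one])

theorem Law.surj (h : Law G) {f : G →* H} (i : Function.Surjective f) : Law H :=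
  h.imp fun n k x y => by
    obtain ⟨x, rfl⟩ := i x
    obtain ⟨y, rfl⟩ := i y
    rw [← map_sq, k, map_one]

theorem law_of_sol (h : Group.IsSolvable G) : Law G := by
  obtain ⟨n, e⟩ := h
  refine ⟨n, fun x y => ?_⟩
  have : ∀ k, sq x y k ∈ derivedSeries G k := fun k => by
    induction k with
    | zero => trivial
    | succ k ih =>
      exact Subgroup.commutator_mem_commutator ((derivedSeries_normal G k).conj_mem _ ih x)
        ((derivedSeries_normal G k).conj_mem _ ih y)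
  simpa [e] using this n

/-- the fixed point relation -/
def Rel (x u : G) : Prop := u * x⁻¹ * x⁻¹ * u⁻¹ * x * u * x = x⁻¹ * x⁻¹ * u⁻¹ * x * x * u

theorem Rel.map {x u : G} (h : Rel x u) (f : G →* H) : Rel (f x) (f u) := by
  simpa [Rel] using congrArg f h

theorem Law.eq_one (h : Law G) {x u : G} (r : Rel x u) : u = 1 := by
  obtain ⟨n, e⟩ := h
  rw [← e x (x * u⁻¹ * x⁻¹ * x⁻¹)]
  clear e
  induction n with
  | zero => simp [sq]
  | succ k ih =>
    change u = st _ _ (sq _ _ k)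
    rw [← ih, st]
    calc u = x⁻¹ * u * x * x * u⁻¹ * (u * x⁻¹ * x⁻¹ * u⁻¹ * x * u * x) * x⁻¹ := by simp [mul_assoc]
      _ = _ := by rw [show _ = _ from r]; simp [mul_assoc]

theorem rel_of_inv {i j k : G} (hi : i * i = 1) (hj : j * j = 1) (hk : k * k = 1)
    (h : (i * j * k * (i * j)) ^ 2 * i * ((i * j * k * (i * j)) ^ 2)⁻¹ = k) : Rel (i * j) (i * k) := by
  have a := inv_eq_of_mul_eq_one_right hi
  have b := inv_eq_of_mul_eq_one_right hj
  have c := inv_eq_of_mul_eq_one_right hk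
  have d : ∀ x, i * (i * x) = x := fun x => by rw [← mul_assoc, hi, one_mul]
  have e : ∀ x, j * (j * x) = x := fun x => by rw [← mul_assoc, hj, one_mul]
  calc _ = i * (i * j) * (((i * j * k * (i * j)) ^ 2)⁻¹ * k) * (i * j) := by
        simp [pow_two, mul_assoc, a, b, c, d, e, hi, hj]
    _ = _ := by
      rw [show ((i * j * k * (i * j)) ^ 2)⁻¹ * k = i * ((i * j * k * (i * j)) ^ 2)⁻¹ by
        rw [inv_mul_eq_iff_eq_mul, ← mul_assoc, h]]
      simp [pow_two, mul_assoc, a, b, c, d, e, hi, hj]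

end

variable {F : Type*} [Field F] [Fintype F]

theorem conic {X t Y : F} (hY : X * Y = X ^ 2 - 1)
    (h : X ^ 2 * t ^ 2 - X ^ 4 * t + 2 * X ^ 4 - 4 * X ^ 2 + 1 = 0) :
    ∃ a b : F, a ^ 2 + X * a * b + b ^ 2 - t * a - Y * b + 1 = 0 := by
  have X0 : X ≠ 0 := by rintro rfl; simp at h
  by_cases h2 : (2 : F) = 0
  · have : ringChar F = 2 := CharP.ringChar_of_prime_eq_zero Nat.prime_two h2
    obtain ⟨a, e⟩ := FiniteField.isSquare_of_char_two this ((t / X) ^ 2 - Y * (t / X) + 1)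
    exact ⟨a, t / X, by
      have : X * (t / X) = t := by field_simp
      linear_combination a * this + e + a * a * h2⟩
  have k : ∀ A b : F, A ^ 2 + ((4 - X ^ 2) * b ^ 2 + (2 * X * t - 4 * Y) * b + (4 - t ^ 2)) = 0 →
      ∃ a b : F, a ^ 2 + X * a * b + b ^ 2 - t * a - Y * b + 1 = 0 := fun A b e =>
    ⟨(A - X * b + t) / 2, b, by field_simp; linear_combination e⟩
  by_cases h4 : 4 - X ^ 2 = 0
  · have n : 2 * X * t - 4 * Y ≠ 0 := by grind
    exact k 0 ((t ^ 2 - 4) / (2 * X * t - 4 * Y)) (by rw [h4, mul_div_cancel₀ _ n]; ring)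
  have o : ringChar F ≠ 2 := fun e => h2 (by have := ringChar.spec F 2; simp_all)
  obtain ⟨A, b, e⟩ := FiniteField.exists_root_sum_quadratic (f := Polynomial.X ^ 2)
    (Polynomial.degree_X_pow 2) (Polynomial.degree_quadratic (b := 2 * X * t - 4 * Y) (c := 4 - t ^ 2) h4)
    (FiniteField.odd_card_of_char_ne_two o)
  exact k A b (by simpa using e)

theorem l2_of {X l : F} (X0 : X ≠ 0) (h : l ^ 2 + 1 = l * (X ^ 3 - 4 * X)) : ¬ Law PSL(2, F) := fun L => by
  obtain ⟨t, ht⟩ : ∃ t, l = X * (t - 2) := ⟨2 + l / X, by field_simp; ring⟩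
  obtain ⟨Z, hZ⟩ : ∃ Z, X * Z - 1 = 0 := ⟨X⁻¹, by field_simp; ring⟩
  have g : X ^ 2 * t ^ 2 - X ^ 4 * t + 2 * X ^ 4 - 4 * X ^ 2 + 1 = 0 := by
    rw [ht] at h; linear_combination h
  obtain ⟨a, b, e⟩ := conic (Y := X - Z) (by linear_combination -hZ) g
  replace h : t ^ 2 - X ^ 2 * t + 2 * X ^ 2 - 4 + Z ^ 2 = 0 :=
    mul_left_cancel₀ (pow_ne_zero 2 X0) (by linear_combination g + (X * Z + 1) * hZ)
  obtain ⟨x, hx⟩ : ∃ x : SL(2, F), x.1 = !![X, -1; 1, 0] := ⟨⟨_, by simp [Matrix.det_fin_two]⟩, rfl⟩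
  obtain ⟨u, hu⟩ : ∃ u : SL(2, F), u.1 = !![a, b; X * a + b - (X - Z), t - a] :=
    ⟨⟨_, by simp [Matrix.det_fin_two]; linear_combination -e⟩, rfl⟩
  have r : Rel x u := by
    refine Subtype.ext ?_
    simp only [Matrix.SpecialLinearGroup.coe_mul, Matrix.SpecialLinearGroup.coe_inv, hx, hu,
      Matrix.adjugate_fin_two_of, Matrix.mul_fin_two]
    ext i j
    fin_cases i <;> fin_cases j <;> simp only [Fin.zero_eta, Fin.mk_one, Matrix.of_apply, Matrix.cons_val',
      Matrix.cons_val_zero, Matrix.cons_val_one, Matrix.cons_val_fin_one]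
    · linear_combination (a + t*X^2 - t + b*X - X^4 + X^3*Z + X^2 - 2*X*Z + 1) * e + (a*X^2 + b*X) * h +
        (a*t*X^2 - 3*a*X^2 + a + t*b*X - t - 3*b*X + X^2 - X*Z + 1) * hZ
    · linear_combination (-a*X - t*X - b*X^2 + b + 2*X^3 - X^2*Z - 3*X + Z) * e + (-a*X - X) * h +
        (-a*t*X + 3*a*X - t*X + b + X + Z) * hZ
    · linear_combination (2*t*X + b - 2*X^3 + X^2*Z + 2*X) * e +
        (a*X^3 - a*X + t*X + b*X^2 - X^3 + 2*X^2*Z) * h + (a*t*X^3 - a*t*X - 3*a*X^3 + 4*a*X + t*b*X^2 +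
        t*X^2*Z - 2*t*X - 3*b*X^2 + b + X^3 - 3*X^2*Z - X*Z^2 + 2*X) * hZ
    · linear_combination (-a - t*X^2 - b*X + X^4 - X^2 - 2*X*Z + 1) * e + (-a*X^2 - b*X - X*Z) * h +
        (-a*t*X^2 + 3*a*X^2 - a - t*b*X - t*X*Z + 3*b*X - X^2 + 3*X*Z + 1) * hZ
  have m := L.eq_one (r.map (QuotientGroup.mk' _))
  rw [QuotientGroup.mk'_apply, QuotientGroup.eq_one_iff] at m
  obtain ⟨s, hs, hr⟩ := Matrix.SpecialLinearGroup.mem_center_iff.1 m
  have h0 := congrFun (congrFun hr 0) 0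
  have h1 := congrFun (congrFun hr 0) 1
  have h2 := congrFun (congrFun hr 1) 0
  have h3 := congrFun (congrFun hr 1) 1
  simp [hu] at h0 h1 h2 h3
  rw [Fintype.card_fin] at hs
  subst h0 h1
  obtain rfl : t = s + s := by linear_combination -h3
  have e1 : X ^ 2 * (1 - s) = 1 := by linear_combination X * h2 + hZ
  have e2 : s = -1 := by linear_combination -X ^ 2 * hs - (1 + s) * e1
  subst e2
  exact one_ne_zero (by linear_combination X ^ 2 * g - (X ^ 2 * (2 * X ^ 2 + 1) + 1) * e1 : (1 : F) = 0)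

theorem ex_ne (h4 : 4 ≤ Fintype.card F) : ∃ l : F, l ≠ 0 ∧ l ≠ 1 := by
  classical
  by_contra! k
  have : (univ : Finset F) ⊆ {0, 1} := fun x _ => by by_cases x = 0 <;> simp_all
  have := (card_le_card this).trans card_le_two
  rw [card_univ] at this
  omega

theorem pt_two (h2 : (2 : F) = 0) (h4 : 4 ≤ Fintype.card F) :
    ∃ X l : F, X ≠ 0 ∧ l ^ 2 + 1 = l * (X ^ 3 - 4 * X) := by
  by_cases i : Function.Injective fun x : F => x ^ 3
  · obtain ⟨l, l0, l1⟩ := ex_ne h4
    obtain ⟨X, e⟩ := Finite.injective_iff_surjective.1 i (l + l⁻¹)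
    have : l * l⁻¹ = 1 := mul_inv_cancel₀ l0
    exact ⟨X, l, by rintro rfl; grind, by grind⟩
  · simp only [Function.Injective, not_forall] at i
    obtain ⟨a, b, e, n⟩ := i
    have b0 : b ≠ 0 := by rintro rfl; simp_all
    exact ⟨1, a / b, one_ne_zero, by field_simp; grind⟩

theorem pt_big (h2 : (2 : F) ≠ 0) (h3 : (3 : F) ≠ 0) :
    ∃ X l : F, X ≠ 0 ∧ l ^ 2 + 1 = l * (X ^ 3 - 4 * X) := by
  classical
  by_contra! k
  let φ : F → F := fun l => if l = 0 then 2 else l + l⁻¹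
  let f : F → F := fun X => X ^ 3 - 4 * X
  have m : ∀ X, f X ∈ (univ.image φ)ᶜ := fun X => by
    simp only [mem_compl, mem_image, mem_univ, true_and, not_exists]
    intro l e
    obtain ⟨l, l0, e⟩ : ∃ l : F, l ≠ 0 ∧ l + l⁻¹ = X ^ 3 - 4 * X := by
      by_cases l0 : l = 0
      · exact ⟨1, one_ne_zero, by simpa [φ, l0, f, one_add_one_eq_two] using e⟩
      · exact ⟨l, l0, by simpa [φ, l0] using e⟩
    have := mul_inv_cancel₀ l0
    by_cases X0 : X = 0
    · exact k 2 l h2 (by grind)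
    · exact k X l X0 (by grind)
  have c1 : #(univ : Finset F) ≤ 2 * #(univ.image φ) := card_le_mul_card_image _ _ fun y hy => by
    obtain ⟨a, -, rfl⟩ := mem_image.1 hy
    refine (card_le_card (t := {a, if a = 0 then 1 else if a = 1 then 0 else a⁻¹}) fun b hb => ?_).trans
      card_le_two
    have := (mem_filter.1 hb).2
    simp only [φ, mem_insert, mem_singleton] at this ⊢
    grind
  have c2 := sum_card_fiberwise_eq_card_filter univ (univ.image φ)ᶜ f
  rw [filter_true_of_mem fun X _ => m X] at c2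
  have c3 := sq_sum_le_card_mul_sum_sq (s := (univ.image φ)ᶜ) (f := fun y => #{X | f X = y})
  have c4 : ∑ y ∈ (univ.image φ)ᶜ, #{X | f X = y} ^ 2 = #{p : F × F | f p.1 = f p.2} := by
    rw [card_eq_sum_card_fiberwise (f := fun p : F × F => f p.1) (t := (univ.image φ)ᶜ) fun p _ => m p.1]
    refine sum_congr rfl fun y _ => ?_
    rw [pow_two, ← card_product]
    congr 1
    ext p
    simp only [mem_product, mem_filter, mem_univ, true_and]
    grind
  have c5 : #{p : F × F | f p.1 = f p.2} ≤ #(univ.image (fun X : F => (X, X)) ∪ (univ.image (fun s : F =>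
      ((2 * s ^ 2 - 2) / (1 + s + s ^ 2), s * ((2 * s ^ 2 - 2) / (1 + s + s ^ 2) - 2))) ∪ {(2, 0), (2, -2)})) :=
    card_le_card fun ⟨X, Y⟩ hp => by
      simp only [mem_filter, mem_univ, true_and, f, mem_union, mem_image, Prod.mk.injEq, mem_insert,
        mem_singleton] at hp ⊢
      by_cases e : X = Y
      · exact .inl ⟨X, rfl, e⟩
      by_cases X2 : X = 2
      · exact .inr (.inr (by grind))
      obtain ⟨s, rfl⟩ : ∃ s, Y = s * (X - 2) := ⟨Y / (X - 2), (div_mul_cancel₀ _ (sub_ne_zero.2 X2)).symm⟩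
      have e1 : X * (1 + s + s ^ 2) = 2 * s ^ 2 - 2 := by grind
      have e2 : (2 * s ^ 2 - 2) / (1 + s + s ^ 2) = X := by
        rw [← e1, mul_div_cancel_right₀ _ fun e3 => h3 ?_]
        have g : s ^ 2 - 1 = 0 := mul_left_cancel₀ h2 (by linear_combination X * e3 - e1)
        linear_combination g - (s - 2) * (e3 - g)
      exact .inr (.inl ⟨s, e2, by rw [e2]⟩)
  have c6 := c5.trans ((card_union_le _ _).trans (add_le_add card_image_le
    ((card_union_le _ _).trans (add_le_add card_image_le card_le_two))))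
  have o : ringChar F ≠ 2 := fun e => h2 (by have := ringChar.spec F 2; simp_all)
  have c7 := FiniteField.odd_card_of_char_ne_two o
  have c8 := card_add_card_compl (univ.image φ)
  rw [c2, c4] at c3
  rw [card_univ] at c1 c3 c6
  have : 2 * #(univ.image φ)ᶜ + 1 ≤ Fintype.card F := by omega
  nlinarith

theorem sum_zpow [DecidableEq F] (k : ℤ) :
    ∑ l : Fˣ, ((l ^ k : Fˣ) : F) = if ((Fintype.card F - 1 : ℕ) : ℤ) ∣ k then -1 else 0 := by
  have p : (0 : ℤ) < (Fintype.card F - 1 : ℕ) := by have := Fintype.one_lt_card (α := F); omega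
  obtain ⟨n, e⟩ := Int.eq_ofNat_of_zero_le (Int.emod_nonneg k p.ne')
  simp only [Int.dvd_iff_emod_eq_zero, e]
  rw [show (∑ l : Fˣ, ((l ^ k : Fˣ) : F)) = ∑ l : Fˣ, (l : F) ^ n from sum_congr rfl fun l _ => by
    rw [← zpow_mod_card, Fintype.card_units, e]; simp, FiniteField.sum_pow_units]
  refine if_congr ⟨fun h => ?_, fun h => by simp_all⟩ rfl rfl
  have := Int.emod_lt_of_pos k p
  have := Nat.eq_zero_of_dvd_of_lt h (by omega)
  omega

theorem pt_three {n : ℕ} (hq : Fintype.card F = 3 ^ n) (hn : 3 ≤ n) :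
    ∃ X l : F, X ≠ 0 ∧ l ^ 2 + 1 = l * (X ^ 3 - 4 * X) := by
  classical
  have h3 : (3 : F) = 0 := by
    have := FiniteField.cast_card_eq_zero F
    rw [hq] at this
    exact pow_eq_zero_iff (n := n) (by omega) |>.1 (by exact_mod_cast this)
  have : CharP F 3 := by
    have := CharP.ringChar_of_prime_eq_zero Nat.prime_three h3
    exact this ▸ ringChar.charP F
  have : Fact (Nat.Prime 3) := ⟨Nat.prime_three⟩
  let T : F →+ F := ∑ i ∈ range n, (iterateFrobenius F 3 i).toAddMonoidHom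
  have hT : ∀ y, T y = ∑ i ∈ range n, y ^ 3 ^ i := fun y => by simp [T, iterateFrobenius_def]
  let f : F →+ F := (frobenius F 3).toAddMonoidHom - AddMonoidHom.id F
  have hf : ∀ y, f y = y ^ 3 - y := fun y => by simp [f, frobenius_def]
  have T3 : ∀ y, T y ^ 3 = T y := fun y => by
    have := sum_range_succ' (fun i => y ^ 3 ^ i) n
    rw [sum_range_succ, ← hq, FiniteField.pow_card] at this
    rw [hT, sum_pow_char]
    simp only [← pow_mul, ← pow_succ, pow_zero, pow_one] at this ⊢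
    linear_combination -this
  have ker : ∀ y, T y = 0 → ∃ X, f X = y := by
    have a : f.range ≤ T.ker := by
      rintro _ ⟨X, rfl⟩
      rw [AddMonoidHom.mem_ker, hf, map_sub, sub_eq_zero, ← T3 X, hT, hT, sum_pow_char]
      exact sum_congr rfl fun i _ => by ring
    have b : Nat.card f.ker ≤ 3 := by
      refine (Nat.card_mono (t := ({0, 1, -1} : Finset F)) (Set.toFinite _) fun x hx => ?_).trans ?_
      · have := (hf x).symm.trans hx
        simp only [coe_insert, coe_singleton, Set.mem_insert_iff, Set.mem_singleton_iff]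
        grind
      · rw [Nat.card_coe_set_eq, Set.ncard_coe_finset]
        exact card_le_three
    obtain ⟨m, rfl⟩ : ∃ m, n = m + 1 := ⟨n - 1, by omega⟩
    have c : Nat.card T.ker ≤ 3 ^ m := by
      let p : Polynomial F := ∑ i ∈ range (m + 1), Polynomial.X ^ 3 ^ i
      have p0 : p ≠ 0 := fun e => by
        have := congrArg (Polynomial.coeff · 1) e
        simp [p, Polynomial.coeff_X_pow, sum_range_succ', eq_comm (a := 1)] at this
      refine (Nat.card_mono (t := p.roots.toFinset) (Set.toFinite _) fun x hx => ?_).trans ?_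
      · simpa [p0, p, Polynomial.eval_finset_sum, ← hT] using hx
      · rw [Nat.card_coe_set_eq, Set.ncard_coe_finset]
        refine (Multiset.toFinset_card_le _).trans (p.card_roots'.trans
          (Polynomial.natDegree_sum_le_of_forall_le _ _ fun i hi => ?_))
        rw [Polynomial.natDegree_X_pow]
        exact Nat.pow_le_pow_right (by omega) (by simpa [Nat.lt_succ_iff] using hi)
    have d := AddSubgroup.card_eq_card_quotient_mul_card_addSubgroup f.ker
    rw [Nat.card_congr (QuotientAddGroup.quotientKerEquivRange f).toEquiv, Nat.card_eq_fintype_card, hq,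
      pow_succ] at d
    exact fun y e => (AddSubgroup.eq_of_le_of_card_ge a (by nlinarith)).ge e
  by_contra! k
  have g : ∀ l : Fˣ, T (l + l⁻¹) ^ 2 = 1 := fun l => mul_left_cancel₀ (a := T (l + l⁻¹)) (fun e => by
    obtain ⟨X, e⟩ := ker _ e
    rw [hf] at e
    have := l.mul_inv
    by_cases X0 : X = 0
    · exact k 1 l one_ne_zero (by subst X0; linear_combination -l * e - this + l * h3)
    · exact k X l X0 (by linear_combination -l * e - this + l * X * h3)) (by linear_combination T3 _)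
  let E : Bool × ℕ → ℤ := fun a => if a.1 then 3 ^ a.2 else -3 ^ a.2
  have e1 : ∀ l : Fˣ, ((l ^ (-4 : ℤ) : Fˣ) : F) = ∑ a ∈ univ ×ˢ range n, ∑ b ∈ univ ×ˢ range n,
      ((l ^ (E a + E b - 4) : Fˣ) : F) := fun l => by
    have : T (l + l⁻¹) = ∑ a ∈ univ ×ˢ range n, ((l ^ E a : Fˣ) : F) := by
      rw [map_add, hT, hT, sum_product, Fintype.sum_bool]
      simp [E, ← zpow_natCast]
    rw [← one_mul ((l ^ (-4 : ℤ) : Fˣ) : F), ← g l, this, pow_two, sum_mul_sum, sum_mul]
    simp only [sum_mul, sub_eq_add_neg, zpow_add, Units.val_mul]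
  have e2 := sum_congr (rfl : (univ : Finset Fˣ) = _) fun l _ => e1 l
  obtain ⟨m, rfl⟩ : ∃ m, n = m + 3 := ⟨n - 3, by omega⟩
  have hp : ∀ i ∈ range (m + 3), (0 : ℤ) < 3 ^ i ∧ (3 : ℤ) ^ i ≤ 9 * 3 ^ m ∧
      (i = 0 ∧ (3 : ℤ) ^ i = 1 ∨ i = 1 ∧ (3 : ℤ) ^ i = 3 ∨ 2 ≤ i ∧ (3 : ℤ) ^ i % 9 = 0) := fun i hi =>
    ⟨by positivity, (pow_le_pow_right₀ (by norm_num) (Nat.lt_succ_iff.1 (mem_range.1 hi))).trans_eq (by ring), by
      obtain _ | _ | i := i
      exacts [.inl ⟨rfl, rfl⟩, .inr (.inl ⟨rfl, rfl⟩), .inr (.inr ⟨by omega, by omega⟩)]⟩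
  have p3 : (0 : ℤ) < 3 ^ m := by positivity
  have hc : ((Fintype.card F - 1 : ℕ) : ℤ) = 27 * 3 ^ m - 1 := by
    rw [Nat.cast_sub Fintype.card_pos, hq]; push_cast; ring
  have dv : ∀ z : ℤ, -(27 * 3 ^ m - 1) < z → z < 27 * 3 ^ m - 1 → (27 * 3 ^ m - 1 ∣ z ↔ z = 0) :=
    fun z a b => ⟨fun h => Int.eq_zero_of_abs_lt_dvd h (abs_lt.2 ⟨a, b⟩), fun h => h ▸ dvd_zero _⟩
  rw [sum_comm, sum_congr rfl fun a ha => sum_comm.trans (sum_congr rfl fun b hb => (sum_zpow _).trans
    (if_congr (Q := a = (true, 0) ∧ b = (true, 1) ∨ a = (true, 1) ∧ b = (true, 0)) ?_ rfl rfl)), sum_zpow, hc,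
    if_neg (mt (dv _ (by omega) (by omega)).1 (by omega))] at e2
  · rw [← sum_product', ← sum_filter, show filter _ _ = {((true, 0), (true, 1)), ((true, 1), (true, 0))} by
      ext ⟨⟨a, i⟩, b, j⟩; simp; omega, sum_pair (by simp)] at e2
    exact one_ne_zero (by linear_combination h3 - e2 : (1 : F) = 0)
  · obtain ⟨a, i⟩ := a
    obtain ⟨b, j⟩ := b
    have hi := hp i (mem_product.1 ha).2
    have hj := hp j (mem_product.1 hb).2
    rw [hc, dv] <;> cases a <;> cases b <;> simp [E] <;> omega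

theorem l2_law (h : (2 : F) = 0 ∧ 4 ≤ Fintype.card F ∨ (∃ n, Fintype.card F = 3 ^ n ∧ 3 ≤ n) ∨
    (2 : F) ≠ 0 ∧ (3 : F) ≠ 0) : ¬ Law PSL(2, F) := by
  obtain ⟨X, l, a, b⟩ : ∃ X l : F, X ≠ 0 ∧ l ^ 2 + 1 = l * (X ^ 3 - 4 * X) := by
    rcases h with h | ⟨n, h⟩ | h
    exacts [pt_two h.1 h.2, pt_three h.1 h.2, pt_big h.1 h.2]
  exact l2_of a b

end CF.Bk
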