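import Mathlib

/-! Polynomials in four variables over `𝔽₂` as bit sets. -/

set_option autoImplicit false

namespace CF.Bk
open Finset

/-- polynomial expressions -/
inductive Ex
  | y | z | b | B | o
  | a (e f : Ex)
  | m (e f : Ex)

namespace Ex
instance : Add Ex := ⟨a⟩
instance : Mul Ex := ⟨m⟩
instance : One Ex := ⟨o⟩

/-- degree bound -/
def dg : Ex → ℕ
  | o => 0
  | a e f => max e.dg f.dg
  | m e f => e.dg + f.dg
  | _ => 1

/-- multiplication of a bit set by an expression -/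
def ml : Ex → ℕ → ℕ
  | y, p => p <<< 1
  | z, p => p <<< 32
  | b, p => p <<< 1024
  | B, p => p <<< 32768
  | o, p => p
  | a e f, p => e.ml p ^^^ f.ml p
  | m e f, p => e.ml (f.ml p)

variable {F : Type*} [Field F] (x : F × F × F × F)

/-- evaluation -/
def ev : Ex → F
  | y => x.1
  | z => x.2.1
  | b => x.2.2.1
  | B => x.2.2.2
  | o => 1
  | a e f => e.ev + f.ev
  | m e f => e.ev * f.ev

theorem ev_add (e f : Ex) : (e + f).ev x = e.ev x + f.ev x := rfl
theorem ev_mul (e f : Ex) : (e * f).ev x = e.ev x * f.ev x := rfl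
theorem ev_one : (1 : Ex).ev x = 1 := rfl
theorem ev_y : y.ev x = x.1 := rfl
theorem ev_z : z.ev x = x.2.1 := rfl
theorem ev_b : b.ev x = x.2.2.1 := rfl
theorem ev_B : B.ev x = x.2.2.2 := rfl

/-- the monomial of a position -/
def mon (i : ℕ) : F :=
  x.1 ^ (i % 32) * x.2.1 ^ (i / 32 % 32) * x.2.2.1 ^ (i / 32 / 32 % 32) * x.2.2.2 ^ (i / 32 / 32 / 32)

/-- the degree of a position -/
def ds (i : ℕ) : ℕ := i % 32 + i / 32 % 32 + i / 32 / 32 % 32 + i / 32 / 32 / 32

/-- `p` represents `t` -/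
def Rp (p d : ℕ) (t : F) : Prop :=
  ∃ s : Finset ℕ, (∀ i, i ∈ s ↔ p.testBit i) ∧ (∀ i ∈ s, ds i ≤ d) ∧ t = ∑ i ∈ s, mon x i

variable {x}

theorem Rp.shift {p d c : ℕ} {t w : F} (h : Rp x p d t)
    (k : ∀ i, ds i ≤ d → ds (i + c) ≤ d + 1 ∧ mon x (i + c) = w * mon x i) :
    Rp x (p <<< c) (d + 1) (w * t) := by
  obtain ⟨s, h1, h2, rfl⟩ := h
  refine ⟨s.map (addRightEmbedding c), fun i => ?_, fun i hi => ?_, ?_⟩
  · simp only [mem_map, addRightEmbedding_apply, Nat.testBit_shiftLeft, h1, Bool.and_eq_true,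
      decide_eq_true_eq]
    exact ⟨by rintro ⟨j, u, rfl⟩; simpa using u, fun ⟨u, v⟩ => ⟨_, v, by omega⟩⟩
  · obtain ⟨j, a, rfl⟩ := mem_map.1 hi
    exact (k j (h2 j a)).1
  · rw [sum_map, mul_sum]
    exact sum_congr rfl fun i a => (k i (h2 i a)).2.symm

theorem s1 (j : ℕ) (h : j % 32 ≤ 30) : (j + 1) % 32 = j % 32 + 1 ∧ (j + 1) / 32 = j / 32 := by omega
theorem s2 (j : ℕ) : (j + 32) % 32 = j % 32 ∧ (j + 32) / 32 = j / 32 + 1 := by omega
theorem s3 (j : ℕ) : (j + 1024) % 32 = j % 32 ∧ (j + 1024) / 32 = j / 32 + 32 := by omega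
theorem s4 (j : ℕ) : (j + 32768) % 32 = j % 32 ∧ (j + 32768) / 32 = j / 32 + 1024 := by omega

theorem Rp.ml [CharP F 2] (e : Ex) {p d : ℕ} {t : F} (h : Rp x p d t) (k : d + e.dg ≤ 31) :
    Rp x (e.ml p) (d + e.dg) (e.ev x * t) := by
  induction e generalizing p d t with
  | o => exact (one_mul t).symm ▸ h
  | m e f he hf =>
    have := he (hf h (by simp only [dg] at k; omega)) (by simp only [dg] at k; omega)
    rwa [← mul_assoc, add_assoc, add_comm f.dg] at this
  | a e f he hf =>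
    obtain ⟨s, h1, h2, h3⟩ := he h (by simp only [dg] at k; omega)
    obtain ⟨r, k1, k2, k3⟩ := hf h (by simp only [dg] at k; omega)
    refine ⟨symmDiff s r, fun i => ?_, fun i hi => ?_, ?_⟩
    · change _ ↔ (e.ml p ^^^ f.ml p).testBit i = true
      rw [mem_symmDiff, h1, k1, Nat.testBit_xor]
      grind
    · rcases mem_symmDiff.1 hi with a | a
      exacts [(h2 i a.1).trans (by simp [dg]), (k2 i a.1).trans (by simp [dg])]
    · rw [ev, add_mul, h3, k3, symmDiff_def, sup_eq_union, sum_union disjoint_sdiff_sdiff,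
        ← sum_inter_add_sum_sdiff s r, ← sum_inter_add_sum_sdiff r s, inter_comm r]
      grind
  | y =>
    refine h.shift fun i hi => ?_
    · simp only [dg, ds, mon, ev] at k hi ⊢
      rw [(s1 i (by omega)).1, (s1 i (by omega)).2]
      exact ⟨by omega, by ring⟩
  | z =>
    refine h.shift fun i hi => ?_
    · simp only [dg, ds, mon, ev] at k hi ⊢
      rw [(s2 i).1, (s2 i).2, (s1 (i / 32) (by omega)).1, (s1 (i / 32) (by omega)).2]
      exact ⟨by omega, by ring⟩
  | b =>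
    refine h.shift fun i hi => ?_
    · simp only [dg, ds, mon, ev] at k hi ⊢
      rw [(s3 i).1, (s3 i).2, (s2 _).1, (s2 _).2, (s1 (i / 32 / 32) (by omega)).1,
        (s1 (i / 32 / 32) (by omega)).2]
      exact ⟨by omega, by ring⟩
  | B =>
    refine h.shift fun i hi => ?_
    · simp only [dg, ds, mon, ev] at k hi ⊢
      rw [(s4 i).1, (s4 i).2, (s3 _).1, (s3 _).2, (s2 _).1, (s2 _).2]
      exact ⟨by omega, by ring⟩

theorem cert [CharP F 2] {P L : Ex} (h0 : P.ev x = 0) (h1 : L.ev x = 0) (T c d : Ex)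
    (k : (T + (c * P + d * L)).dg ≤ 31 ∧ (T + (c * P + d * L)).ml 1 = 0 := by decide +kernel) :
    T.ev x = 0 := by
  have := Rp.ml (x := x) (p := 1) (d := 0) (t := 1) _
    ⟨{0}, fun i => by simp [Nat.testBit_one_eq_true_iff_self_eq_zero], by simp [ds], by simp [mon]⟩
    (by simpa using k.1)
  obtain ⟨s, a, -, c⟩ := k.2 ▸ this
  rw [eq_empty_of_forall_notMem (s := s) (by simp [a])] at c
  simpa [ev_add, ev_mul, h0, h1] using c

end Ex
end CF.Bk
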