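import Cfsg.Agent.Bk.E

/-! Polynomial identities behind a fixed point in the Suzuki groups. -/

set_option autoImplicit false

namespace CF.Bk.Ex

local notation "y'" => Ex.y
local notation "z'" => Ex.z
local notation "b'" => Ex.b
local notation "B'" => Ex.B

/-- `b + y z` -/
def G : Ex := b + y * z
/-- `B + y² z` -/
def S : Ex := B + y * y * z
/-- the first equation -/
def Ps : Ex := 1 + y * y + (b * G + z + 1) * (1 + B * S + y * b + B)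
/-- the second equation -/
def La : Ex := B * (b * G * (z + 1) + z * z) + b * b * G * (b + y) + z * b * b + 1
/-- a numerator -/
def Nf : Ex :=
  z*(y*(b*(y*(y + 1) + z*B + b*b + 1) + y*B + 1) + B*(z + b*b + 1) + b*b + 1) + b*(y*(y*b + 1) + b*b*b + B +
    1) + y + B*B
/-- a numerator -/
def Nd : Ex :=
  b*(b*(y*(z + 1) + b*(B + 1) + B) + z*(y*y*(z*B + 1) + 1)) + y*y*(z*z*B + 1)
/-- a numerator -/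
def Nm : Ex :=
  z*(y*(y*B*(z + B) + b*(z + 1)) + z + b*b + B*B) + B*(y*y + B*B)
/-- a numerator -/
def Nk : Ex :=
  y*(z*(y + b) + b) + z + b*b
/-- a numerator -/
def Nn : Ex :=
  y*(z*(y + b) + b) + b*b + B
/-- a numerator -/
def Nl : Ex :=
  y*(z*(B*(y*(y*z + b) + z + B + 1) + z*(y*b + 1) + b*b) + y*b + B) + b*B*(z + B + 1)
/-- a numerator -/
def Np : Ex :=
  y*(y*(y*y*(z*B + 1) + z + B*B) + b*(z*(B + 1) + B + 1)) + B*(z + b*b + B + 1) + z + b*b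
/-- a numerator -/
def Nq : Ex :=
  y*(z*(B*(y*(y*(z*(B + 1) + 1) + b*(z + 1)) + B*(z + B) + b*b + 1) + b*b + 1) + y*(y + b*B) + B + 1) +
    b*(B*(z + b*b + 1) + z + b*b)

set_option maxHeartbeats 4000000 in
set_option maxRecDepth 20000 in
theorem core {F : Type*} [Field F] [i : CharP F 2] {y z b B g s a A c C f d m n p q w0 w1 w2 w3 : F}
    (h0 : Ps.ev (y, z, b, B) = 0) (h1 : La.ev (y, z, b, B) = 0)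
    (hg : g = G.ev (y, z, b, B)) (hs : s = S.ev (y, z, b, B)) (b0 : b ≠ 0) (B0 : B ≠ 0) (g0 : g ≠ 0) (s0 : s ≠ 0)
    (ha : a = (b * s + z) / (B * s)) (hA : A = (B * g ^ 2 + y ^ 2) / (b ^ 2 * g ^ 2))
    (hc : c = 1 + (g + y) / (b * s)) (hC : C = 1 + (s + z) / (B * g ^ 2))
    (ef : f = a * c + A * a ^ 2 + C) (ed : d = c + A * a) (em : m = 1 + b + B + a * B + c * b + f * B)
    (e0 : w0 = f + a + 1) (e1 : w1 = c + 1) (e2 : w2 = a + b * w0) (e3 : w3 = 1 + b * w1 + B * w0)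
    (en : n = w0 + a * w1 + c * w2 + f * w3) (ep : p = g ^ 2 * (B + A * b + d * B) + s ^ 2 * m)
    (eq : q = g ^ 2 * (w1 + A * w2 + d * w3) + s ^ 2 * n) {v0 v1 v2 v3 : F}
    (r0 : v0 = 1 + b + B + p * f + g ^ 2 * m * d) (r1 : v1 = B + p * c + g ^ 2 * m * A)
    (r2 : v2 = b + p * a + g ^ 2 * m + b * v0) (r3 : v3 = B + p + b * v1 + B * v0) :
    v0 + v2 + v3 = s * (w0 + q * f + g ^ 2 * n * d + (w2 + q * a + g ^ 2 * n) + (w3 + q)) ∧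
    v1 + v3 = s * (w1 + q * c + g ^ 2 * n * A + (w3 + q)) ∧
    v2 + b * (v0 + v2 + v3) = s * (w2 + q * a + g ^ 2 * n) ∧
    v3 + b * (v1 + v3) + B * (v0 + v2 + v3) = s * (w3 + q) := by
  have hf : f = Nf.ev (y, z, b, B) / (B * s) := by
    have k := cert h0 h1 (b'*(B'*(b'*S*(G*G*(S*(b' + B' + 1) + y' + z' + G + Nf) + S*(z' + S)) + z'*G*G*(y' + G)) + y'*y'*b'*S*S) +
      z'*z'*(y'*y' + B'*G*G)) ((b'*(B'*(z'*(z'*(y'*(y'*y'*(z' + 1) + B'*(z' + 1) + b'*b' + 1) + b'*(B' + 1)) + b'*(b'*(y' + b') + 1)) +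
      b'*(y'*b' + B')) + y'*(b'*b'*(b'*(y' + b') + z') + 1)) + z'*(B'*(z'*z'*(y'*y' + B') + 1) +
      y'*y'))) ((B'*(z'*(y'*(y'*(z'*(y'*(y'*(z'*(b'*(y' + b') + 1) + 1) + b'*B'*(z' + 1)) + z'*B' + b'*b' + 1) + b'*(b'*(b'*b' + B' + 1) +
      y') + B') + b'*(B'*(z'*(B' + 1) + 1) + b'*b')) + B'*(B'*(z' + b'*b' + 1) + z' + b'*b' + 1) + z' + b'*b') + b'*(y'*(b'*b' + B' + 1) +
      b'*B'*(b'*b' + B'))) + y'*(b'*(y'*(b'*(z' + b'*b' + 1) + y'*(z' + 1)) + z' + b'*b') + y'*y'*y'*z')))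
    simp only [ev_add, ev_mul, ev_one, ev_y, ev_z, ev_b, ev_B, ← hg, ← hs] at k
    rw [ef, ha, hA, hc, hC]; field_simp; clear * - i k; grind
  have hd : d = Nd.ev (y, z, b, B) / (b * B * g ^ 2) := by
    have k := cert h0 h1 (b'*(B'*G*G*(S*(b' + 1) + y' + G) + S*(y'*y' + Nd)) + z'*(y'*y' + B'*G*G)) (((1+1))) ((y'*y'*z'))
    simp only [ev_add, ev_mul, ev_one, ev_y, ev_z, ev_b, ev_B, ← hg, ← hs] at k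
    rw [ed, ha, hA, hc]; field_simp; clear * - i k; grind
  have hm : m = Nm.ev (y, z, b, B) / (b ^ 2 * s ^ 2) := by
    have k := cert h0 h1 (b'*b'*S*(S*(b' + B' + 1) + y' + z' + G + Nf) + Nm) ((z'*(y'*b' + B' + 1) + B')) ((y'*(y'*z'*(b'*(y' + b') + B' +
      1) + b'*B') + B'*(b'*b' + B')))
    simp only [ev_add, ev_mul, ev_one, ev_y, ev_z, ev_b, ev_B, ← hg, ← hs] at k
    rw [em, hf, ha, hc]; field_simp; clear * - i k; grind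
  have hk : B + A * b + d * B = Nk.ev (y, z, b, B) / (g ^ 2) := by
    have k := cert h0 h1 (b'*(B'*G*G + Nk) + y'*y' + B'*G*G + Nd) (((1+1))) (((1+1)))
    simp only [ev_add, ev_mul, ev_one, ev_y, ev_z, ev_b, ev_B, ← hg, ← hs] at k
    rw [hd, hA]; field_simp; clear * - i k; grind
  have hn : n = Nn.ev (y, z, b, B) / (s ^ 2) := by
    have k := cert h0 h1 (S*(b'*(S*(b' + B') + y' + z' + G) + B'*(y' + G + S + Nf)) + z'*(y' + G + Nf) + B'*Nn + Nf*Nf) ((y'*(z'*(y' +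
      b') + b') + b'*b' + B' + 1)) ((b'*(y'*(z'*(y'*(y' + b') + B'*(z' + 1) + b'*b') + y'*(y' + b') + b'*b' + 1) + b'*(z'*(B' + 1) + b'*b' +
      B')) + B'*(y'*y'*(z' + 1) + z'*z' + B' + 1) + z'*(y'*y'*y'*y' + 1)))
    simp only [ev_add, ev_mul, ev_one, ev_y, ev_z, ev_b, ev_B, ← hg, ← hs] at k
    rw [en, e3, e2, e0, e1, hf, ha, hc]; field_simp; clear * - i k; grind
  have hl : w1 + A * w2 + d * w3 = Nl.ev (y, z, b, B) / (b * g ^ 2 * s) := by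
    have k := cert h0 h1 (b'*(B'*(G*G*(S*(b' + B' + 1) + y' + z' + G + Nf) + S*(y'*y' + Nd) + Nl) + Nd*(S*(b' + 1) + y' + z' + G +
      Nf) + y'*y'*(S*(b' + 1) + z' + Nf)) + z'*(y'*y' + B'*G*G)) ((b'*(B'*(z'*(y'*(z' + 1) + b') + b') + y' +
      b'))) ((b'*(y'*(z'*(B'*(y'*z'*(y' + b') + B' + 1) + y'*y' + b'*b' + 1) + b'*(y' + b'*B') + B') + b'*(B'*(b'*b' + B' + 1) + z' + b'*b')) +
      y'*y'*z'))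
    simp only [ev_add, ev_mul, ev_one, ev_y, ev_z, ev_b, ev_B, ← hg, ← hs] at k
    rw [e3, e2, e0, e1, hf, hd, hA, ha, hc]; field_simp; clear * - i k; grind
  have hp : p = Np.ev (y, z, b, B) / (B) := by
    have k := cert h0 h1 (b'*b'*(B'*Nk + Np) + B'*Nm) ((b'*(b'*(y'*(y' + b') + B' + 1) + y'*z'*B') + B'*(z'*(B' + 1) +
      B'))) ((y'*(y'*(z'*B'*(y'*b' + B' + 1) + b'*b') + b'*B'*B') + B'*B'*B'))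
    simp only [ev_add, ev_mul, ev_one, ev_y, ev_z, ev_b, ev_B, ← hg, ← hs] at k
    rw [ep, hk, hm]; field_simp; clear * - i k; grind
  have hq : q = Nq.ev (y, z, b, B) / (b * B * s) := by
    have k := cert h0 h1 (B'*(b'*S*Nn + Nl) + Nq) ((y' + b')) ((y'))
    simp only [ev_add, ev_mul, ev_one, ev_y, ev_z, ev_b, ev_B, ← hg, ← hs] at k
    rw [eq, hl, hn]; field_simp; clear * - i k; grind
  subst r3 r2 r0 r1 e3 e2 e0 e1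
  clear ef ed em en ep eq hC hk hl
  subst hf hd hm hn hp hq ha hA hc
  refine ⟨?_, ?_, ?_, ?_⟩
  · have k := cert h0 h1 (b'*(b'*S*(b'*(B'*(S*(B'*(B'*(b' + B' + S + 1) + b'*(b' + 1) + y' + z' + G + Nf + 1) + b'*(z' + b'*S + Nf + Np) +
      Nf + Np) + Np*(y' + G + Nf) + B'*G*G*Nn) + Np*(b'*(S + Nf) + z' + Nf) + S*Nq) + Nq*(z' + B'*S + Nf) + B'*Nd*Nn) +
      B'*Nm*(B'*G*G + Nd)) + B'*Nm*(B'*(y'*y' + B'*G*G + Nd) + Nd)) ((B'*(b'*(z'*(B'*(z'*(y'*(B'*(z'*(B'*(b'*(b' + B' + 1) + y'*(z' +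
      1) + z' + 1) + z'*(b'*(b' + 1) + y'*y' + 1) + y'*(y'*y' + 1) + b') + b'*(b'*(b' + B' + 1) + B'*(B' + 1)) + y'*(y'*(y' + 1) + B' +
      1) + B' + 1) + z'*(z'*(y' + b' + 1) + b'*b'*(b' + 1) + y' + 1) + b'*b'*(b'*(b'*b' + 1) + 1) + y' + 1) + b'*(B'*(b'*(z'*(b' + 1) +
      B'*(b' + B')) + z'*z' + B' + 1) + b'*(b' + 1) + z') + z'*(z'*(B' + 1) + B'*B'*B' + 1)) + b'*(b'*(b'*(y'*(b'*(b'*(b' + B') + B' + 1) +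
      B'*(B' + 1)) + b'*b'*(b' + 1) + B'*(B' + 1)) + B'*B'*(B' + 1) + y' + 1) + B'*(y' + B') + 1) + B'*(y'*(y'*(B' + 1) + B' + 1) + B' +
      1) + y'*y'*y'*y' + 1) + y'*(z'*(b'*(b'*(b'*(b'*b'*(b' + 1) + z' + 1) + z' + 1) + z') + y'*(y'*y'*(z' + 1) + 1) + z' + 1) +
      b'*(b'*b'*b'*b'*(b'*(b' + 1) + 1) + 1) + y'*y' + 1) + b'*(b'*(z'*(z' + b'*b'*b' + 1) + b'*(b'*b'*b'*b' + 1)) + z'*z' + 1) + 1) +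
      b'*(b'*(b'*(b'*(y'*(y'*(y'*(b'*(y' + b' + B' + 1) + y'*(B' + 1) + 1) + b') + b'*(B' + 1) + B'*B' + 1) + b'*(b'*(b'*(b' + B' + 1) +
      B'*B') + B'*B') + B'*B'*B' + 1) + y'*(B'*(B'*(y' + B' + 1) + y'*y') + 1)) + y'*(y'*(y'*(y' + 1) + B'*B'*(B' + 1) + 1) + B'*B') +
      B'*(B'*(B' + 1) + 1) + 1) + y'*(y'*(y'*(B' + 1) + 1) + B'*B'*B') + B'*(B'*B' + 1)) + y'*(y'*B' + 1) + B' + 1) +
      z'*(z'*(B'*(y'*(z'*(B'*(y'*(y' + z') + B'*(z' + 1) + 1) + y'*(y' + 1) + z' + 1) + y'*(y' + B' + 1) + B'*(B' + 1)) + z'*(z'*(B'*(B' +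
      1) + 1) + 1) + B'*B') + y'*y'*(y' + z' + 1) + z' + 1) + y'*(y'*(y'*(B' + 1) + 1) + B'*(B' + 1) + 1) + 1) + B'*(y'*(y' + B') +
      B' + 1) + y'*y'*y' + 1) + b'*(b'*(b'*(y'*(b'*(b'*(b'*(b'*(y'*(y'*(y' + b' + 1) + 1) + z'*b' + 1) + y'*y'*y' + z' + 1) + y'*y' + 1) +
      y'*(y' + 1) + z') + y'*(y'*y' + 1) + z'*(z' + 1) + 1) + b'*b'*(b'*(b'*(z' + b'*b') + 1) + 1)) + y'*(y' + z' + 1) + z'*z' + 1) +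
      y'*y'*(y'*z'*(y' + 1) + 1)) + y'*(y'*(y' + z' + 1) + 1) + z')) ((b'*(B'*(y'*(z'*(y'*(b'*(y'*(B'*(z'*(y'*(y'*(z'*(y' + b' + B' + 1) +
      y'*(y' + b') + b' + B' + 1) + b'*(z'*(b' + B' + 1) + b'*(b' + B') + B'*B') + z'*(B' + 1) + 1) + B'*(z'*(B'*(b' + B' + 1) + z'*(b' +
      1)) + b'*(b'*(b' + B') + 1) + B' + 1) + b'*(b'*(b'*(z' + b') + 1) + 1) + z'*z' + 1) + b'*(b'*(y'*(y'*(b' + B' + 1) + b' + B') +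
      b'*(b' + B') + B'*B' + 1) + y'*(y' + B'*B' + 1) + 1) + y'*(y'*(B' + 1) + 1) + B'*B' + 1) + y'*(y'*(b'*(b'*(z'*(y' + 1) + b'*(b' +
      1) + 1) + y'*(y'*z' + 1)) + y'*(y'*(z' + 1) + z') + z' + 1) + z'*(b'*(b'*(b' + 1) + z' + 1) + z' + 1) + b'*b') +
      z'*(b'*(b'*(b'*b' + 1) + 1) + z' + 1) + b'*b'*(b' + 1)) + b'*(B'*(B'*(b'*(z'*(z' + B' + 1) + b'*(b' + B' + 1) + B' + 1) +
      B'*(z'*(B' + 1) + B' + 1) + z'*z' + 1) + b'*(b'*(z'*(b' + 1) + b'*b' + 1) + 1) + z') + b'*(b'*(z'*(b' + 1) + b' + 1) + 1) +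
      z'*(z' + 1) + 1) + z'*(B'*(z'*(B'*(z' + 1) + 1) + B' + 1) + z' + 1) + 1) + z'*(B'*(y'*(z'*(B'*(y'*(y'*(y' + z' + 1) + z'*B' + 1) +
      z'*(B' + 1) + B') + z'*(y' + 1)) + y'*(y' + 1) + B' + 1) + B'*(B'*(z' + B' + 1) + z'*z' + 1) + z'*(z' + 1)) + y'*(y'*(y'*y'*z' +
      1) + z' + 1) + 1) + y'*(y'*(y'*y' + 1) + B'*B' + 1) + B'*B'*(B'*(B' + 1) + 1)) + B'*(b'*(b'*(B'*(z'*(B'*(z' + B' + 1) + z' + b'*b' +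
      1) + b'*(b'*(b' + B') + B'*B')) + b'*(z' + b') + 1) + z'*(z'*(B'*B' + 1) + B'*B'*B'*B' + 1) + B' + 1) + B'*(B'*(z'*(z'*B' + 1) + B' +
      1) + 1) + z'*(z' + 1) + 1) + b'*(b'*(b'*(b'*b'*(b' + 1) + z') + 1) + z') + z') + b'*(b'*(b'*(b'*(y'*(y'*(B'*(y' + b' + B' + 1) +
      y'*(b' + 1)) + b'*(b' + B' + 1)) + b'*(b'*(b' + B' + 1) + B') + B'*(B'*B' + 1) + 1) + y'*(B'*(y'*(B'*(B' + 1) + 1) + B'*B' + 1) +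
      y') + B'*B'*B'*B' + 1) + B'*(B'*B'*(y'*B' + 1) + 1) + y'*y') + y'*y'*(y' + 1) + 1) + y'*y'*(y' + B' + 1) + 1) +
      B'*(b'*(B'*(b'*(z'*(b'*(b'*(b' + 1) + B'*(z' + B') + 1) + B'*(z' + B'*B' + 1) + 1) + b'*b'*(b'*(b' + B') + B'*B' + 1) + B' + 1) +
      z'*(B'*(z'*z' + B' + 1) + z'*z' + 1) + B'*(B' + 1) + 1) + b'*(b'*(b'*(b'*(z' + 1) + 1) + z' + 1) + 1) + z'*z'*(z' + 1) + 1) +
      z'*(B'*(B'*(B'*(z'*(B' + 1) + B' + 1) + z'*z') + z') + 1) + B'*B' + 1) + z'*(b'*(b'*(b'*(z' + b'*b' + 1) + z') + 1) + z'*(z' + 1) +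
      1) + b'*b'*(b' + 1)) + y'*(y'*(b'*(b'*(y'*(y'*(b'*(z'*(y'*(y' + 1) + b' + 1) + b'*(b'*(b' + 1) + 1) + y' + 1) + y'*(z'*(y'*y' + z') +
      1) + z' + 1) + z'*(z'*(b'*b' + 1) + b'*b'*b' + 1) + b'*b'*b' + 1) + b'*(b'*(b'*(z'*(b' + 1) + b' + 1) + 1) + z'*z') + 1) +
      y'*(y'*(y'*z'*(y'*y' + z') + 1) + z' + 1)) + y'*(z'*(y'*(y'*(y' + 1) + z') + z' + 1) + 1) + z' + 1) + b'*(b'*(b'*(z' + b'*b'*b'*b' +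
      1) + 1) + z' + 1) + z') + b'*b'*b'*(b'*(z' + b'*b') + 1)) + B'*(z'*(z'*(y'*(y'*(B'*(y'*(y'*(z'*(B'*(y' + z' + 1) + y' + 1) + B'*(y' +
      1) + 1) + z'*(z'*(B'*B' + 1) + B') + B'*B' + 1) + z'*(z'*(B'*(B' + 1) + 1) + 1) + 1) + y'*(y'*(y' + z') + 1) + z' + 1) +
      B'*(z'*(B'*B'*(B' + 1) + 1) + B'*B' + 1) + z' + 1) + B'*(B'*(z'*(B'*B' + 1) + B'*B' + 1) + 1) + z') + y'*(B'*(B'*(B' + 1) + y') +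
      y' + 1) + B'*B'*B'*B') + y'*(B'*(B'*B'*(B' + 1) + 1) + y'*y'*(y'*y' + 1) + 1) + B'*(B'*B'*B' + 1)) + y'*(y'*(y'*(y'*(y' + z' + 1) +
      z' + 1) + z'*z') + z') + z'*z'))
    simp only [ev_add, ev_mul, ev_one, ev_y, ev_z, ev_b, ev_B, ← hg, ← hs] at k
    field_simp; clear * - i k; grind
  · have k := cert h0 h1 (b'*(b'*S*(b'*(b'*(S*(B'*(B'*(B' + S + 1) + S*(b' + 1) + y' + z' + G + Nf) + b'*Np) + Np*(y' + G + Nf)) +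
      y'*(B'*S + Np) + G*(B'*S + Np)) + y'*(y'*B'*Nn + Nq) + G*(B'*B'*G*Nn + Nq)) + B'*Nm*(y'*y' + B'*G*G + Nd)) + B'*Nm*(y'*y' +
      B'*G*G)) ((B'*(b'*(z'*(B'*(z'*(y'*(B'*(z'*(z'*(y'*y' + b'*b' + B' + 1) + B'*(b'*b' + 1)) + b'*b'*(B' + 1) + y'*y' + B' + 1) + z'*(z' +
      b'*b' + 1) + b'*b' + 1) + b'*(B'*(z'*(z' + b'*b') + B'*(b'*b' + 1) + 1) + z' + b'*b')) + b'*(b'*(b'*(b'*(y'*(b'*b' + B' + 1) + b') +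
      B'*(B' + 1)) + y') + B'*B' + 1) + y'*B'*(B' + 1)) + b'*(b'*(b'*(b'*b'*(b'*(y'*(z' + 1) + b') + z') + 1) + y'*z'*(z' + 1)) + z'*z' +
      1) + y'*(z'*(z' + 1) + y'*y' + 1)) + b'*(b'*(b'*(b'*(y'*(y'*(y'*(b'*(y' + b') + 1) + b') + B'*B' + 1) + b'*(b'*b'*(B' + 1) + B'*B')) +
      y'*y'*B'*B') + y'*(y'*y' + B'*B')) + B'*(B'*B' + 1) + y'*y') + y') + z'*(z'*(B'*(z'*(z'*(B'*(y'*y' + B' + 1) + 1) + y'*y' + 1) +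
      y'*y'*(B' + 1) + B'*B') + y'*y'*(z' + 1) + z' + 1) + y'*y' + 1) + B'*(y'*y' + B' + 1) + 1) + b'*(b'*(y'*(b'*(b'*(b'*(y'*y'*(b'*(y' +
      b') + 1) + b'*b' + 1) + y') + z'*(z' + 1) + 1) + y') + z'*z' + b'*b'*b'*b' + 1) + y'*y'*y'*z') + y'*y'*(z' + 1) +
      z')) ((B'*(b'*(y'*(z'*(y'*(b'*(z'*(B'*(y'*(b'*(z'*(y'*(y' + b') + B'*(z' + B') + b'*b') + B'*(b'*(y' + b') + 1) + y'*y' + 1) +
      y'*(z'*(y'*y' + B' + 1) + 1)) + B'*(z'*(z' + b'*b' + 1) + b'*b'*(B' + 1) + 1) + z' + b'*b'*b'*b' + 1) + y'*(y'*(y'*y'*(b'*(y' + b') +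
      1) + z' + b'*b' + 1) + b') + z' + b'*b'*b'*b' + 1) + b'*(b'*(B'*(B'*(y'*(y' + b') + b'*b' + B' + 1) + y'*y'*y'*b' + 1) + y'*(y'*(y'*b' +
      1) + b') + b'*b' + 1) + y'*B'*(y'*y' + 1)) + y'*y'*B' + 1) + y'*(z'*(B'*(z'*(B'*(z'*(y'*y' + B' + 1) + y'*y' + B') + z') + y'*y' + B' +
      1) + z' + 1) + B'*B' + 1)) + B'*(B'*(z'*(b'*b'*(B'*(z' + B' + 1) + z' + b'*b' + 1) + B'*(z'*B' + 1)) + B'*(b'*b'*b'*b' + B' + 1) +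
      1) + z'*(z' + 1) + b'*b'*(b'*b' + 1) + 1) + b'*b'*(b'*b'*b'*b' + 1) + z') + b'*(b'*(b'*(b'*(B'*(y'*(y'*(B' + 1) + b') + b'*b' + B'*B' +
      1) + b'*(y'*(y'*y' + 1) + b') + 1) + y'*B'*(B'*B' + 1)) + B'*(B'*B' + 1) + y'*y') + y'*y'*y') + y'*y'*(B' + 1) + 1) +
      b'*(B'*(z'*(B'*(B'*(z'*(z' + b'*b') + B'*(b'*b' + 1) + 1) + b'*b'*(b'*b' + 1) + z'*z' + 1) + z'*(z' + 1) + b'*b'*(b'*b' + 1)) +
      B'*(B'*(b'*b'*b'*b' + B' + 1) + 1) + b'*b'*(b'*b' + 1) + 1) + z'*(b'*b'*(z' + b'*b' + 1) + 1) + b'*b')) +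
      z'*(z'*(B'*(y'*y'*(z'*(z'*(B'*(y'*y' + B' + 1) + 1) + y'*y'*(B' + 1) + 1) + y'*y'*(B' + 1) + 1) + B'*(z'*(B'*B' + 1) + B'*B' + 1) +
      1) + y'*y'*(z'*(y'*y' + 1) + 1) + z') + y'*y'*(B' + 1) + B'*B'*B'*B') + B'*(B'*B'*B' + 1)) + y'*(y'*(b'*(y'*(b'*(b'*(y'*(y'*(z'*(y'*(y' +
      b') + z') + 1) + b'*(z' + b'*b' + 1)) + z'*(z'*(b'*b' + 1) + 1) + 1) + y') + z'*(y'*y' + z' + 1) + 1) + b'*b'*b'*(z'*(z' + b'*b') +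
      b'*b')) + y'*y'*(z' + 1) + z'*z') + b'*(z' + b'*b')) + z'*z' + b'*b'*b'*b'))
    simp only [ev_add, ev_mul, ev_one, ev_y, ev_z, ev_b, ev_B, ← hg, ← hs] at k
    field_simp; clear * - i k; grind
  · have k := cert h0 h1 (b'*(S*(b'*(b'*(B'*(S*(B'*(b'*(b' + B') + B'*B' + S + 1) + b'*(S + Np) + z' + S + Nf + Np) + Np*(y' + G + Nf)) +
      Np*(b'*(S + Nf) + z' + S)) + z'*(B'*S + Np) + B'*B'*G*G*Nn + S*Nq) + z'*Nq) + B'*Nm*(B'*G*G + Nd)) + B'*B'*Nm*(G*G*(B' +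
      1) + y'*y' + Nd)) ((b'*(B'*(B'*(z'*(z'*(B'*(y'*(z'*(z'*(y'*(y' + B' + 1) + b'*(b' + 1) + B') + b'*(b'*(B' + 1) + B'*B' + 1) +
      y'*(y'*y' + B') + B' + 1) + B'*(b'*(b' + B') + y' + 1) + y'*y'*(y' + 1) + b'*b'*b' + 1) + b'*(b'*(b'*(z' + B' + 1) + B'*(B' + 1) +
      z' + 1) + z'*z' + B') + z'*(B'*(B' + 1) + z' + 1)) + y'*(z'*(y'*(y' + 1) + z' + b' + 1) + b'*(b'*b'*(b'*b' + 1) + 1) + y' + 1) +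
      b'*(b'*b'*b' + 1)) + y'*(b'*b'*(b'*(b'*(b'*(b' + B' + 1) + B') + B'*B') + 1) + y'*(y'*(y' + 1) + B'*B' + 1) + B'*(B' + 1) + 1) +
      b'*(b'*(b'*(b'*(b'*(b' + 1) + 1) + B'*B') + B'*B'*B' + 1) + B'*B') + B'*B' + 1) + b'*(b'*(b'*(b'*(b'*(b'*(b' + B' + 1) + y'*(y'*y' +
      1) + B' + 1) + y'*(y'*y'*y' + B' + 1) + B'*(B' + 1) + 1) + y'*(y'*(y' + B' + 1) + B'*B' + 1) + 1) + y'*(y'*(B'*B' + 1) + B' +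
      1) + B'*(B' + 1) + 1) + y'*(y'*(y' + 1) + B'*(B' + 1)) + B'*B') + y'*y' + 1) + b'*(b'*(b'*(b'*(b'*(y'*(y'*(y'*(y' + b') + 1) +
      z'*(b'*(z' + b') + 1) + 1) + z'*(b'*(b' + 1) + z') + b'*b'*b' + 1) + y'*(y'*(y' + 1) + z'*z') + 1) + y'*(y'*y' + z' + 1) + z'*z') +
      y'*(y'*(y'*y' + 1) + z'*z'*z' + 1) + z' + 1) + y'*(y' + z'*z'*z' + 1) + z'*z'*(z' + 1)) + y'*(z'*(z'*(y'*y'*(y' + 1) + z' + 1) +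
      y'*y'*y' + 1) + y') + z'*z'*z') + b'*(b'*(b'*(b'*(b'*(b'*(y'*(y'*(y'*(y' + b') + 1) + z'*(b' + 1) + 1) + b'*(b' + 1) + z' + 1) +
      y'*y' + z' + 1) + y'*(y' + z' + 1) + 1) + y'*(y'*(y'*(y' + 1) + 1) + z'*(z' + 1)) + 1) + y'*(y'*(y' + 1) + z'*(z' + 1)) + z'*z' +
      1) + y'*(z'*(z' + 1) + y' + 1) + z'*z' + 1) + y'*y'*(y'*(z'*(y' + z') + 1) + z') + z') + B'*(z'*(y'*(z'*(B'*(z'*(B'*(z'*(y' + B' +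
      1) + y'*y' + B') + y'*y' + 1) + y'*(y' + B') + B'*B' + 1) + y'*(z'*(y' + 1) + 1) + z' + 1) + y'*(y'*(B' + 1) + B' + 1) + B'*B' +
      1) + z'*(z'*(z'*B'*(B'*B' + 1) + 1) + B'*B'*B' + 1)) + y'*(y'*(y' + 1) + B'*(B' + 1)) + B'*(B' + 1)) + y'*(y'*(z'*(y' + 1) + 1) +
      z' + 1) + z')) ((b'*(B'*(y'*(z'*(y'*(b'*(y'*(b'*(B'*(z'*(b'*(b'*(y' + z' + b' + B' + 1) + y'*(z' + B' + 1) + B'*(B' + 1) + z') +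
      B'*(z'*(y' + z' + B' + 1) + y'*(B' + 1) + 1) + y'*y'*(y' + z' + 1) + 1) + b'*(y'*(y'*(b' + B') + b' + B' + 1) + b'*(b' + B' + 1) +
      B'*(B' + 1)) + y'*(B'*(B' + 1) + y') + 1) + b'*(y'*(y'*(z'*(y' + 1) + b'*b' + 1) + z'*(b' + 1) + 1) + z'*(b'*(b' + 1) + 1) + b' +
      1) + y'*y'*y'*(z'*(y' + 1) + 1) + z') + B'*(z'*(y'*(y'*(z'*(y' + B' + 1) + y'*y' + B' + 1) + z'*B') + z'*(B'*(z' + B'*B') + 1) +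
      B'*B') + y'*(y'*B' + 1) + B'*B' + 1) + y'*(y'*(y'*y' + z') + z'*z') + z'*z' + 1) + b'*(B'*(B'*(b'*(B'*(z' + b' + 1) + z'*z' + b'*b') +
      z'*(z' + B'*B') + B'*B' + 1) + b'*b'*b'*(z' + b' + 1) + z') + b'*(b'*(b'*(z' + 1) + 1) + z') + z' + 1) + B'*(z'*(B'*(z'*(z' + 1) +
      1) + 1) + B' + 1) + z'*z' + 1) + z'*(B'*(z'*(y'*(y'*(B'*(y'*(y' + z' + 1) + z'*(B' + 1) + 1) + y' + 1) + z'*(B'*B' + 1) + B'*B') +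
      B'*(z' + B' + 1)) + B'*(y'*y' + B'*B' + 1)) + y'*(y'*(y'*y' + 1) + z') + z' + 1) + y'*(y'*(y'*y' + 1) + 1) + B'*B'*(B'*B' + 1)) +
      B'*(B'*(b'*(b'*(b'*(b'*(z' + b' + B' + 1) + B'*(B' + 1) + z' + 1) + z'*(z'*(B' + 1) + B'*B')) + z'*(B'*(B'*(B' + 1) + z' + 1) + z') +
      B') + B'*(z'*(z'*(B' + 1) + 1) + B' + 1) + z'*z' + 1) + b'*(b'*(z' + b' + 1) + 1) + z'*z') + b'*(b'*(b'*b'*(b'*b' + 1) + 1) + z' +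
      1) + 1) + b'*(b'*(b'*(B'*(y'*(y'*(b'*(y' + b' + B') + B'*B' + 1) + b'*(b' + 1) + B'*(B' + 1)) + B'*(B'*(b' + B' + 1) + b' + 1) +
      b'*(b'*b' + 1)) + y'*(y'*(y'*b'*b' + 1) + b'*b'*b' + 1) + b'*b'*b'*b' + 1) + y'*(B'*(B'*(B'*(B' + 1) + 1) + 1) + y') + B'*B'*B') +
      B'*(y'*(y' + B' + 1) + B' + 1) + y') + B'*(y'*(y' + B' + 1) + B' + 1)) + b'*(B'*(b'*(b'*(b'*(b'*(B'*(z' + b' + B' + 1) + z' + 1) +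
      B'*B'*(B' + 1) + z' + 1) + z'*B'*(B'*(z' + B' + 1) + 1) + 1) + B'*(z'*B'*(B'*(B' + 1) + z') + 1) + 1) + z'*(z'*(z'*(B'*(B' + 1) +
      1) + 1) + B'*(B'*B' + 1) + 1) + B'*B'*(B' + 1)) + b'*(z'*(b'*(b'*(b' + 1) + z' + 1) + z' + 1) + b'*b' + 1) + 1) +
      z'*(z'*(B'*(B'*(z'*(B' + 1) + B'*B'*B' + 1) + z') + 1) + B'*B'*B'*B'*B' + 1) + B'*B'*(B' + 1)) + y'*(y'*(b'*(b'*(y'*(y'*(z'*(y'*(y'*(y' +
      b' + 1) + z' + b' + 1) + z' + b'*b' + 1) + b'*(b'*(b'*b' + 1) + y' + 1)) + b'*(b'*(z'*(z' + b' + 1) + b' + 1) + 1) + z'*z' + 1) +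
      b'*(b'*(z'*(b'*b' + 1) + b'*b' + 1) + z'*z') + z'*z' + 1) + y'*(z'*(y'*(y'*y' + z') + 1) + 1)) + y'*(y'*(y'*(y'*z' + 1) + z'*z') +
      z'*z' + 1) + z'*z' + 1) + b'*(b'*(b'*b'*b'*(b'*(b' + 1) + 1) + z' + 1) + z' + 1) + z') + b'*b'*b'*(b'*(b'*(b' + 1) + z' + 1) + z' +
      1) + z'*z') + B'*(z'*(z'*(B'*(y'*(y'*(y'*(B'*(z'*(y'*(y' + z' + 1) + z'*(B' + 1) + 1) + y'*(y' + 1) + B') + y'*(y'*z' + 1) + z' +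
      1) + z'*(z'*(B'*B' + 1) + B') + B' + 1) + B'*(B'*(z'*B' + 1) + 1) + z') + B'*(B'*(z'*(B' + 1) + B' + 1) + 1) + z') +
      y'*y'*(y'*(y'*(y'*(z' + 1) + z') + z') + z') + z' + 1) + y'*(y'*(y'*(B'*(B' + 1) + y'*y') + 1) + B'*B'*(B' + 1)) + B'*B'*B'*B' + 1) +
      y'*(y'*(y'*y'*(y' + 1) + B' + 1) + B'*(B'*(B'*B' + 1) + 1) + 1) + B'*B'*(B'*B' + 1)) + y'*(y'*(y'*(z'*(y'*(y' + 1) + z' + 1) + y' +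
      1) + z'*z') + z'*(z' + 1)) + z'*z'))
    simp only [ev_add, ev_mul, ev_one, ev_y, ev_z, ev_b, ev_B, ← hg, ← hs] at k
    field_simp; clear * - i k; grind
  · have k := cert h0 h1 (b'*(b'*S*(b'*(B'*(S*(B'*(b'*b' + B'*B' + S + 1) + b'*(S + Np) + y' + z' + G + S + Nf + Np) + Np*(y' + G +
      Nf)) + Np*(b'*(y' + b'*S + G) + z' + S)) + S*Nq) + y'*y'*B'*Nm) + B'*B'*Nm*(y'*y' + B'*G*G +
      Nd)) (b'*(B'*(z'*(B'*(z'*(y'*(b'*(z'*(B'*(z' + b'*b' + B'*B') + z' + b'*b' + 1) + y'*y'*(y'*y' + 1) + b'*b' + B'*B'*B' + 1) +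
      y'*(z'*(y'*y' + B'*B' + 1) + B'*B')) + B'*(z'*(z' + B'*B' + 1) + b'*b'*(b'*b' + B'*B' + 1) + B' + 1) + z'*(z' + 1) + b'*b'*b'*b') +
      b'*(y'*(B'*(b'*b'*(b'*b' + B') + y'*y' + B' + 1) + y'*y' + b'*b' + 1) + b'*(b'*b'*(B' + 1) + B'*B'*B')) + B'*(y'*y' + B' + 1) + 1) +
      y'*(y'*(y'*(b'*(z'*(y'*y' + z' + 1) + y'*y' + 1) + y'*(z'*z' + 1)) + z') + b'*b'*b'*b'*b'*(z' + b'*b' + 1)) + b'*b'*(b'*b'*(z' + 1) +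
      1) + z'*z' + 1) + b'*(b'*(b'*(b'*(B'*(y'*(y'*y'*(y' + b') + b') + B'*(b'*b' + B' + 1)) + y'*(y' + b') + b'*b'*b'*b') + y'*B'*(B'*(B' +
      1) + 1)) + y'*y'*B'*B'*B') + y'*B') + y'*y' + B'*B') + b'*(b'*(b'*b'*(y'*(b'*(b'*(y'*(y'*(y' + b') + 1) + z'*b') + z'*(z' + 1)) + y') +
      z'*(z' + 1) + b'*b'*b'*b') + z'*z') + y'*z'*(y'*y'*(y'*y'*z' + 1) + 1)) + y'*y'*(y'*y'*z' + 1) + z' +
      1)) (b'*(y'*(b'*(B'*(z'*(y'*(y'*(b'*(y'*(z'*(B'*(B'*(B' + 1) + y'*y' + z' + b'*b') + y'*(y' + b') + z' + b'*b' + 1) + y'*(b'*(b'*b' +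
      B'*B' + 1) + y') + B'*(b'*b' + B'*B')) + b'*(z'*(B'*(B'*(z' + B' + 1) + b'*b') + z' + b'*b') + B'*(b'*b' + B'*B') + 1)) +
      B'*(z'*(z'*(B'*(z' + B'*B' + 1) + z') + y'*y'*(y'*y' + B' + 1)) + y'*y'*(B' + 1)) + y'*y'*(y'*y' + z'*z' + 1)) + b'*(B'*(B'*(B'*(B'*(z' +
      1) + b'*b' + 1) + b'*b'*(z' + 1)) + b'*b'*b'*b' + 1) + z' + b'*b' + 1)) + B'*(B'*(z'*(B'*(B'*(B' + 1) + z' + b'*b' + 1) + b'*b' +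
      1) + b'*b'*(B'*(B' + 1) + b'*b' + 1) + 1) + z'*(z' + 1) + b'*b'*b'*b') + b'*b'*(b'*b' + 1) + 1) + b'*(y'*(y'*(b'*(B'*(b'*(y' + b') +
      B'*B') + 1) + y') + B'*B'*(B'*B' + 1) + b'*b'*b'*b' + 1) + b'*(B'*(B'*(B'*B' + 1) + b'*b') + b'*b'*b'*b')) + B'*(B'*(B'*(B' + 1) + y'*y' +
      1) + 1) + y'*y') + y'*(b'*(b'*(b'*(y'*(y'*(z' + b'*b' + 1) + b'*(z' + 1)) + z'*(z' + b'*b' + 1) + b'*b') + y'*(y'*y'*(z' + 1) +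
      z'*z')) + z'*(y'*y'*(y'*y' + 1) + z' + 1) + 1) + y'*(z'*(z'*(y'*y' + 1) + 1) + 1)) + z'*(z' + b'*b'*b'*b' + 1) + b'*b'*(b'*b'*b'*b' +
      1) + 1) + y'*(B'*(z'*(z'*(B'*(z'*(y'*y'*(y'*y' + B'*B' + 1) + z'*(B' + 1) + B'*B'*B') + y'*y'*(y'*y' + 1) + 1) + y'*y'*(y'*y'*(z' + 1) +
      1) + z') + B'*(y'*y' + B'*B' + 1) + y'*y'*y'*y') + y'*y'*(B' + 1) + B'*B'*B' + 1) + y'*y'*(z'*(y'*y' + z') + 1) + 1)) +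
      B'*(B'*(B'*(B'*(z'*(z'*(B'*(B' + 1) + z' + 1) + b'*b'*(b'*b' + B'*B' + 1) + B'*B' + 1) + b'*b'*(B'*(b'*b' + 1) + 1) + B' + 1) +
      b'*b'*(z'*(z' + 1) + b'*b'*(b'*b' + 1)) + z') + z'*(b'*b' + 1) + b'*b'*b'*b' + 1) + z'*(z'*z' + b'*b'*b'*b') + b'*b' + 1) + z'*(z'*(b'*b' +
      1) + b'*b' + 1) + b'*b'*(b'*b'*b'*b' + 1)))
    simp only [ev_add, ev_mul, ev_one, ev_y, ev_z, ev_b, ev_B, ← hg, ← hs] at k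
    field_simp; clear * - i k; grind

end CF.Bk.Ex
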