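import Cfsg.Agent.Bk.A
import Cfsg.Agent.Bk.P
import Cfsg.Agent.BN.SzGroup

/-! A fixed point in the Suzuki group from a solution of two equations. -/

set_option autoImplicit false

namespace CF.Bk
open CF.BN.Suz Matrix

variable {F : Type*} [Field F] {T : Tits F} {G : Type*} [Group G] (D : SzData T G)

theorem conj_of {g : G} {s : F} (h : D.ρ g *ᵥ ![1, 0, 0, 0] = s • ![1, 0, 0, 0]) :
    g * D.u 0 1 * g⁻¹ = D.u 0 (T.θ s) := by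
  have h0 := congrFun h 0
  have h3 := congrFun h 3
  simp [mulVec, dotProduct, Fin.sum_univ_four] at h0 h3
  obtain ⟨a, b, t, rfl⟩ := D.mem_B_iff.2 h3
  simp [D.ρ_u, D.ρ_h, Tits.uM, Tits.hM, mul_apply, Fin.sum_univ_four] at h0
  calc _ = D.u a b * (D.h t * D.u 0 1 * (D.h t)⁻¹) * (D.u a b)⁻¹ := by group
    _ = _ := by
      rw [D.h_conj_u, mul_zero, D.u_mul_u_zero, ← D.u_zero_mul_u, mul_inv_cancel_right, ← h0, map_mul, T.θθ,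
        mul_one]

include D in
theorem sz_of {y b : F} (h0 : Ex.Ps.ev (y, T.θ y, b, T.θ b) = 0) (h1 : Ex.La.ev (y, T.θ y, b, T.θ b) = 0)
    (b0 : b ≠ 0) (g0 : b + y * T.θ y ≠ 0) : ¬ Law G := fun L => by
  have := T.charP
  obtain ⟨g, hg⟩ : ∃ g, g = b + y * T.θ y := ⟨_, rfl⟩
  rw [← hg] at g0
  have B0 := mt T.θ_eq_zero.1 b0
  have s0 := mt T.θ_eq_zero.1 g0
  have hs : T.θ g = T.θ b + y * y * T.θ y := by rw [hg, map_add, map_mul, T.θθ]; ring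
  obtain ⟨a, ha⟩ : ∃ a, a = (b * T.θ g + T.θ y) / (T.θ b * T.θ g) := ⟨_, rfl⟩
  obtain ⟨c, hc⟩ : ∃ c, c = 1 + (g + y) / (b * T.θ g) := ⟨_, rfl⟩
  obtain ⟨e0, e1, e2, e3⟩ := Ex.core (A := T.θ a) (C := T.θ c) h0 h1 hg hs b0 B0 g0 s0 ha
    (by simp [ha, T.θθ]) hc (by simp [hc, T.θθ]) rfl rfl rfl rfl rfl rfl rfl rfl rfl rfl rfl rfl rfl rfl
  clear h0 h1 ha hc hg hs
  obtain ⟨i, hi⟩ : ∃ i, i = D.u 0 1 := ⟨_, rfl⟩
  obtain ⟨j, hj⟩ : ∃ j, j = D.w * D.u 0 b * D.w := ⟨_, rfl⟩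
  obtain ⟨t, ht⟩ : ∃ t, t = D.u a c * D.w := ⟨_, rfl⟩
  obtain ⟨k, hk⟩ : ∃ k, k = t * D.u 0 (g ^ 2) * t⁻¹ := ⟨_, rfl⟩
  have i2 : i * i = 1 := hi ▸ D.u_zero_sq 1
  have j2 : j * j = 1 := by
    rw [hj]
    calc _ = D.w * (D.u 0 b * (D.w * D.w) * D.u 0 b) * D.w := by group
      _ = 1 := by rw [D.w_mul_w, mul_one, D.u_zero_sq, mul_one, D.w_mul_w]
  have k2 : k * k = 1 := by
    rw [hk]
    calc _ = t * (D.u 0 (g ^ 2) * D.u 0 (g ^ 2)) * t⁻¹ := by group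
      _ = 1 := by rw [D.u_zero_sq, mul_one, mul_inv_cancel]
  have ai : ∀ v0 v1 v2 v3 : F, D.ρ i *ᵥ ![v0, v1, v2, v3] = ![v0 + v2 + v3, v1 + v3, v2, v3] := by
    intro v0 v1 v2 v3
    ext r
    fin_cases r <;> simp [hi, D.ρ_u, Tits.uM, Tits.f_def, mulVec, dotProduct, Fin.sum_univ_four]
  have aj : ∀ v0 v1 v2 v3 : F, D.ρ j *ᵥ ![v0, v1, v2, v3] =
      ![v0, v1, v2 + b * v0, v3 + b * v1 + T.θ b * v0] := by
    intro v0 v1 v2 v3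
    ext r
    fin_cases r <;> simp [hj, D.ρ_u, D.ρ_w, wM, Tits.uM, Tits.f_def, mulVec, dotProduct, Fin.sum_univ_four] <;>
      ring
  have at' : D.ρ t *ᵥ ![1, 0, 0, 0] = ![a * c + T.θ a * a ^ 2 + T.θ c, c, a, 1] := by
    ext r
    fin_cases r <;> simp [ht, D.ρ_u, D.ρ_w, wM, Tits.uM, Tits.f_def, mulVec, dotProduct, Fin.sum_univ_four]
  have ak : ∀ v0 v1 v2 v3 m p : F, m = v0 + a * v1 + c * v2 + (a * c + T.θ a * a ^ 2 + T.θ c) * v3 →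
      p = g ^ 2 * (v1 + T.θ a * v2 + (c + T.θ a * a) * v3) + T.θ g ^ 2 * m → D.ρ k *ᵥ ![v0, v1, v2, v3] =
      ![v0 + p * (a * c + T.θ a * a ^ 2 + T.θ c) + g ^ 2 * m * (c + T.θ a * a),
        v1 + p * c + g ^ 2 * m * T.θ a, v2 + p * a + g ^ 2 * m, v3 + p] := by
    rintro v0 v1 v2 v3 _ _ rfl rfl
    ext r
    simp only [hk, ht, _root_.mul_inv_rev, D.w_inv, D.u_inv, map_mul, D.ρ_u, D.ρ_w, ← mulVec_mulVec]
    fin_cases r <;> simp [wM, Tits.uM, Tits.f_def, mulVec, dotProduct, Fin.sum_univ_four, T.θθ] <;> grind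
  have key : D.ρ j *ᵥ D.ρ i *ᵥ D.ρ j *ᵥ D.ρ k *ᵥ D.ρ i *ᵥ D.ρ j *ᵥ ![1, 0, 0, 0] =
      T.θ g • D.ρ i *ᵥ D.ρ k *ᵥ D.ρ j *ᵥ D.ρ i *ᵥ D.ρ t *ᵥ ![1, 0, 0, 0] := by
    rw [at', aj, ai, ak _ _ _ _ _ _ rfl rfl, aj, ai, aj, ai, aj, ak _ _ _ _ _ _ rfl rfl, ai]
    ext r
    fin_cases r <;> simp only [Fin.zero_eta, Fin.mk_one, Fin.reduceFinMk, Pi.smul_apply, cons_val, smul_eq_mul]
    · linear_combination e0
    · linear_combination e1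
    · linear_combination e2
    · linear_combination e3
  have e := conj_of D (g := t⁻¹ * (i * j * k * (i * j)) ^ 2) (s := T.θ g) (by
    rw [show t⁻¹ * (i * j * k * (i * j)) ^ 2 = t⁻¹ * i * j * k * i * (j * (i * (j * (k * (i * j))))) by
      simp only [pow_two, mul_assoc]]
    simp only [map_mul (D.ρ) _ (_ * _ : G), ← mulVec_mulVec]
    rw [map_mul D.ρ i j, ← mulVec_mulVec, key, mulVec_smul]
    simp only [mulVec_mulVec, ← map_mul]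
    rw [show t⁻¹ * i * j * k * i * (i * (k * (j * (i * t)))) = t⁻¹ * (i * (j * (k * (i * i) * k) * j) * i) * t by
      simp only [mul_assoc]]
    simp [i2, j2, k2])
  rw [T.θθ, ← hi] at e
  have r := L.eq_one (rel_of_inv i2 j2 k2 (Eq.trans (by simp only [_root_.mul_inv_rev, inv_inv, mul_assoc,
    mul_inv_cancel_left, mul_inv_cancel, mul_one]) (e ▸ hk.symm)))
  have := congrFun (congrArg (D.ρ · *ᵥ ![1, 0, 0, 0]) r) 3
  simp only [map_mul, ← mulVec_mulVec, ak _ _ _ _ _ _ rfl rfl, ai] at this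
  exact s0 (by simpa using this)

end CF.Bk
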