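import Cfsg.Agent.Bk.T

/-! An elementary bound (Stepanov's method) for the zeros of a twisted trace. -/

set_option autoImplicit false

namespace CF.Bk
open Finset Polynomial

section
variable {R S : Type*} [CommRing R] [CommRing S]

/-- denominator of the function -/
def D2 (x w : R) : R := d1 x w * d1 w (x ^ 2)
/-- numerator of the function -/
def N2 (c : ℕ) (x w : R) : R := x * (1 + w) + c * (x * w ^ 2) * D2 x w
/-- denominator of the twisted sum -/
def Qf (x w : R) : R := d1 w (x ^ 2) * d1 x w ^ 2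
/-- numerator of the twisted sum -/
def Pf (c : ℕ) (x w : R) : R :=
  x * (1 + w) * d1 x w + w * (1 + x ^ 2) + c * (x * w ^ 2 + w * x ^ 4) * Qf x w
/-- sums of monomials -/
def mo {n D : ℕ} (s : Finset (Fin n × Fin D)) (x u : R) : R := ∑ p ∈ s, x ^ (p.2 : ℕ) * u ^ (p.1 : ℕ)
/-- numerators of partial traces -/
def sN (P Q : R) (n : ℕ) : R := ∑ i ∈ range (n + 1), P ^ 2 ^ i * Q ^ (2 ^ n - 2 ^ i)

variable {Φ : Type*} [FunLike Φ R S] [RingHomClass Φ R S] (f : Φ) (c : ℕ) (x w : R)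
theorem map_d1 : f (d1 x w) = d1 (f x) (f w) := by simp [d1]
theorem map_D2 : f (D2 x w) = D2 (f x) (f w) := by simp [D2, map_d1]
theorem map_N2 : f (N2 c x w) = N2 c (f x) (f w) := by simp [N2, map_D2]
theorem map_Qf : f (Qf x w) = Qf (f x) (f w) := by simp [Qf, map_d1]
theorem map_Pf : f (Pf c x w) = Pf c (f x) (f w) := by simp [Pf, map_Qf, map_d1]
theorem map_mo {n D : ℕ} (s : Finset (Fin n × Fin D)) : f (mo s x w) = mo s (f x) (f w) := by simp [mo]

/-- a multiplicative filtration -/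
structure Fl (V : ℕ → R → Prop) : Prop where
  zero : ∀ n, V n 0
  one : V 0 1
  add : ∀ {n x y}, V n x → V n y → V n (x + y)
  mul : ∀ {n k x y}, V n x → V k y → V (n + k) (x * y)
  mono : ∀ {n k x}, V n x → n ≤ k → V k x

namespace Fl
variable {V : ℕ → R → Prop} (h : Fl V) {a b : ℕ} {x w}
include h

theorem pow (hx : V a x) (n : ℕ) : V (n * a) (x ^ n) := by
  induction n with
  | zero => simpa using h.one
  | succ n ih => rw [pow_succ, add_mul, one_mul]; exact h.mul ih hx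

theorem cast (n : ℕ) : V 0 n := by
  induction n with
  | zero => simpa using h.zero 0
  | succ n ih => rw [Nat.cast_succ]; exact h.add ih h.one

theorem sum {ι : Type*} {s : Finset ι} {g : ι → R} (k : ∀ i ∈ s, V a (g i)) : V a (∑ i ∈ s, g i) :=
  sum_induction g _ (fun _ _ => h.add) (h.zero a) k

theorem add' {y : R} (hx : V a x) (hy : V b y) : V (max a b) (x + y) :=
  h.add (h.mono hx le_sup_left) (h.mono hy le_sup_right)

variable (hx : V a x) (hw : V b w)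
include hx hw

theorem d1 : V (2 * a + b) (d1 x w) :=
  h.mono (h.add' h.one (h.mul hw (h.add' (h.add' h.one hx) (h.pow hx 2)))) (by omega)

theorem D2 : V (4 * a + 3 * b) (D2 x w) :=
  h.mono (h.mul (h.d1 hx hw) (h.d1 hw (h.pow hx 2))) (by omega)

theorem N2 : V (5 * a + 5 * b) (N2 c x w) :=
  h.mono (h.add' (h.mul hx (h.add' h.one hw)) (h.mul (h.mul (h.cast c) (h.mul hx (h.pow hw 2))) (h.D2 hx hw)))
    (by omega)

theorem Qf : V (6 * a + 4 * b) (Qf x w) :=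
  h.mono (h.mul (h.d1 hw (h.pow hx 2)) (h.pow (h.d1 hx hw) 2)) (by omega)

theorem Pf : V (10 * a + 6 * b) (Pf c x w) :=
  h.mono (h.add' (h.add' (h.mul (h.mul hx (h.add' h.one hw)) (h.d1 hx hw)) (h.mul hw (h.add' h.one (h.pow hx 2))))
    (h.mul (h.mul (h.cast c) (h.add' (h.mul hx (h.pow hw 2)) (h.mul hw (h.pow hx 4)))) (h.Qf hx hw))) (by omega)

theorem mo {n D : ℕ} (s : Finset (Fin (n + 1) × Fin D)) : V (D * a + n * b) (mo s x w) :=
  h.sum fun p _ => h.mono (h.mul (h.pow hx _) (h.pow hw _))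
    (add_le_add (Nat.mul_le_mul_right _ p.2.2.le) (Nat.mul_le_mul_right _ (Nat.lt_succ_iff.1 p.1.2)))

omit hw in
theorem sN (hw : V a w) (n : ℕ) : V (2 ^ n * a) (sN x w n) :=
  h.sum fun i hi => h.mono (h.mul (h.pow hx _) (h.pow hw _)) (by
    rw [← add_mul, Nat.add_sub_cancel' (Nat.pow_le_pow_right two_pos (Nat.lt_succ_iff.1 (mem_range.1 hi)))])

end Fl

theorem fl1 : Fl fun n (p : R[X]) => p.natDegree ≤ n :=
  ⟨by simp, by simp, natDegree_add_le_of_degree_le, natDegree_mul_le_of_le, le_trans⟩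

theorem fl2 : Fl fun n (p : R[X][X]) => ∀ i, (p.coeff i).natDegree ≤ n :=
  ⟨by simp, fun i => by rw [coeff_one]; split_ifs <;> simp,
    fun a b i => by rw [coeff_add]; exact fl1.add (a i) (b i),
    fun a b i => by rw [coeff_mul]; exact fl1.sum fun _ _ => fl1.mul (a _) (b _),
    fun a b i => (a i).trans b⟩

theorem lift {q : ℕ} {p : R[X][X]} (h : ∀ i, (p.coeff i).natDegree < q) (e : p.eval (X ^ q) = 0) : p = 0 := by
  nontriviality R
  induction hn : p.natDegree using Nat.strong_induction_on generalizing p with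
  | _ n ih =>
    have e1 := e
    rw [← X_mul_divX_add p, eval_add, eval_mul, eval_X, eval_C] at e1
    have c0 : p.coeff 0 = 0 := by_contra fun k => (monic_X_pow q).not_dvd_of_natDegree_lt k
      (by simpa using h 0) ⟨-eval (X ^ q) p.divX, by linear_combination e1⟩
    rw [c0, add_zero, (monic_X_pow q).mul_right_eq_zero_iff] at e1
    by_cases n0 : p.natDegree = 0
    · rw [eq_C_of_natDegree_eq_zero n0, c0, C_0]
    rw [← X_mul_divX_add p, ih _ (by rw [natDegree_divX_eq_natDegree_tsub_one]; omega)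
      (fun i => by rw [coeff_divX]; exact h _) e1 rfl, c0]
    simp

end

theorem descent {K : Type*} [Field K] {u : K} {D N A B : K[X]} (hD : D.eval u ≠ 0) (hN : N.eval u ≠ 0)
    (h : (X - C u) * D * (A ^ 2 + A * B) = N * B ^ 2) : A = 0 ∧ B = 0 := by
  have n := X_sub_C_ne_zero u
  suffices B = 0 by
    subst this
    have : D ≠ 0 := by rintro rfl; simp at hD
    simpa [n, this] using h
  induction hn : B.natDegree using Nat.strong_induction_on generalizing A B with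
  | _ k ih =>
    by_contra B0
    obtain ⟨B, rfl⟩ : X - C u ∣ B := dvd_iff_isRoot.2 (by simpa [hN] using (congrArg (eval u) h).symm)
    have h1 : D * (A ^ 2 + A * ((X - C u) * B)) = N * (X - C u) * B ^ 2 :=
      mul_left_cancel₀ n (by linear_combination h)
    obtain ⟨A, rfl⟩ : X - C u ∣ A := dvd_iff_isRoot.2 (by simpa [hD] using congrArg (eval u) h1)
    have b0 := right_ne_zero_of_mul B0
    exact b0 (ih _ (by rw [← hn, natDegree_mul n b0, natDegree_X_sub_C]; omega)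
      (A := A) (mul_left_cancel₀ n (by linear_combination h1)) rfl)

theorem ex_aux {n D e : ℕ} {c d : (ZMod 2)[X]} (hc : c.natDegree ≤ e) (hd : d.natDegree ≤ e)
    (h : D * 16 + n + e + 1 < 2 * ((n + 1) * D)) : ∃ s t : Finset (Fin (n + 1) × Fin D), (s.Nonempty ∨ t.Nonempty) ∧
      mo s (X ^ 16) X * d + mo t (X ^ 16) X * c = 0 := by
  let v : (Fin (n + 1) × Fin D) ⊕ (Fin (n + 1) × Fin D) → (ZMod 2)[X] :=
    Sum.elim (fun p => mo {p} (X ^ 16) X * d) fun p => mo {p} (X ^ 16) X * c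
  obtain ⟨g, h1, i, h2⟩ := Fintype.not_linearIndependent_iff.1 (fun k : LinearIndependent (ZMod 2)
    fun i (j : Fin (D * 16 + n + e + 1)) => (v i).coeff j => by
      have := k.fintype_card_le_finrank
      simp at this
      omega)
  have z : ∀ a : ZMod 2, ∀ x : (ZMod 2)[X], a • x = if a ≠ 0 then x else 0 := fun a x => by
    rcases (by decide : ∀ a : ZMod 2, a = 0 ∨ a = 1) a with rfl | rfl <;> simp
  have e1 : mo {p | g (.inl p) ≠ 0} (X ^ 16) X * d + mo {p | g (.inr p) ≠ 0} (X ^ 16) X * c = ∑ i, g i • v i := by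
    simp only [Fintype.sum_sum_type, z, v, Sum.elim_inl, Sum.elim_inr, mo, sum_singleton, sum_mul, sum_filter,
      ite_mul, zero_mul]
  refine ⟨univ.filter fun p => g (.inl p) ≠ 0, univ.filter fun p => g (.inr p) ≠ 0, by
    rcases i with i | i
    exacts [.inl ⟨i, by simpa⟩, .inr ⟨i, by simpa⟩], Polynomial.ext fun j => ?_⟩
  by_cases hj : j < D * 16 + n + e + 1
  · simpa [e1] using congrFun h1 ⟨j, hj⟩
  · have k := fun s : Finset (Fin (n + 1) × Fin D) =>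
      (fl1 (R := ZMod 2)).mo (natDegree_X_pow_le 16) natDegree_X_le s
    exact coeff_eq_zero_of_natDegree_lt ((fl1.add (fl1.mul (k _) hd) (fl1.mul (k _) hc)).trans_lt (by omega))

theorem mo_ne {n D : ℕ} {s : Finset (Fin n × Fin D)} (h : s.Nonempty) :
    mo s (C (X ^ 16) : (ZMod 2)[X][X]) X ≠ 0 := fun e => by
  obtain ⟨p, hp⟩ := h
  have := congrArg (fun f => (f.coeff p.1).coeff (16 * p.2)) e
  simp only [mo, finset_sum_coeff, ← C_pow, coeff_C_mul, coeff_X_pow, ← pow_mul, coeff_zero] at this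
  rw [sum_eq_single p] at this
  · simp at this
  · intro q _ n
    split_ifs with a
    · rw [mul_one, coeff_X_pow, if_neg fun b => n (Prod.ext (Fin.ext a.symm) (Fin.ext (by omega)))]
    · simp
  · exact fun k => absurd hp k

section
variable {L : Type*} [Field L] [CharP L 2]

omit [CharP L 2] in
theorem map_sN {R Φ : Type*} [CommRing R] [FunLike Φ R L] [RingHomClass Φ R L] (f : Φ) {P Q : R} (h : f Q ≠ 0)
    (n : ℕ) : f (sN P Q n) = f Q ^ 2 ^ n * ts (n + 1) (f P / f Q) := by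
  simp only [sN, ts, map_sum, mul_sum, map_mul, map_pow]
  refine sum_congr rfl fun i hi => ?_
  rw [pow_sub₀ _ h (Nat.pow_le_pow_right two_pos (Nat.lt_succ_iff.1 (mem_range.1 hi))), div_pow]
  ring

theorem twist (c : ℕ) {x w : L} (h : Qf x w ≠ 0) :
    N2 c x w / D2 x w + N2 c w (x ^ 2) / D2 w (x ^ 2) = Pf c x w / Qf x w := by
  have e : d1 (x ^ 2) (w ^ 2) = d1 x w ^ 2 := by simp only [d1]; grind
  simp only [Qf, ne_eq, mul_eq_zero, pow_eq_zero_iff two_ne_zero, not_or] at h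
  obtain ⟨a, b⟩ := h
  simp only [N2, D2, Pf, Qf, e]
  field_simp
  ring

end

theorem nz {K : Type*} [Field K] {ι : (ZMod 2)[X] →+* K} (h : Function.Injective ι) {p : (ZMod 2)[X]}
    (e : p.eval 0 = 1) : ι p ≠ 0 := fun k => by
  rw [(injective_iff_map_eq_zero ι).1 h p k] at e
  simp at e

theorem vanish {K : Type*} [Field K] [IsAlgClosed K] [j : CharP K 2] {ι : (ZMod 2)[X] →+* K}
    (i : Function.Injective ι) {r D c : ℕ} (r0 : r ≠ 0) {s t : Finset (Fin 9 × Fin D)} {P Q : (ZMod 2)[X]}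
    (Q0 : Q.eval 0 = 1) {A B : (ZMod 2)[X][X]} {Z : (ZMod 2)[X]} (hZ : Z = X ^ r)
    (hA : A = mo s (C (X ^ 16 : (ZMod 2)[X])) X) (hB : B = mo t (C (X ^ 16 : (ZMod 2)[X])) X)
    (h : Qf (C Z) X * C Q * (A ^ 2 + A * B) - (Pf c (C Z) X * C Q + C P * Qf (C Z) X) * B ^ 2 = 0) :
    ¬ (s.Nonempty ∨ t.Nonempty) := by
  have k := congrArg (mapRingHom ι) h
  simp only [map_sub, map_add, map_mul, map_pow, map_Qf, map_Pf, coe_mapRingHom, map_C, map_X, map_zero,
    sub_eq_zero] at k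
  obtain ⟨z, hz⟩ : ∃ z, ι Z = z := ⟨_, rfl⟩
  have z0 : z ≠ 0 := hz ▸ (map_ne_zero_iff _ i).2 (hZ ▸ pow_ne_zero _ X_ne_zero)
  obtain ⟨u, hu⟩ := IsAlgClosed.exists_root (C (z ^ 2) * X ^ 2 + C (z ^ 2) * X + C (1 + z ^ 2))
    (by rw [degree_quadratic (pow_ne_zero 2 z0)]; decide)
  simp only [IsRoot.def, eval_add, eval_mul, eval_pow, eval_C, eval_X] at hu
  rw [hz] at k
  have e1 : d1 X (C z ^ 2) = (X - C u) * (C z ^ 2 * (X - C u + 1)) := by
    have := congrArg C hu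
    simp only [map_add, map_mul, map_pow, map_one, map_zero] at this
    simp only [d1]
    clear * - this j
    grind
  have n1 : d1 z u ≠ 0 := fun e => nz i (p := (1 + Z + Z ^ 2) ^ 2 + Z ^ 2 * ((1 + Z + Z ^ 2) ^ 2 + (Z + Z ^ 2)))
    (by simp [hZ, r0]) (by
      simp only [d1, map_add, map_mul, map_pow, map_one, hz] at e ⊢
      linear_combination (norm := skip) (1 + z + z ^ 2) ^ 2 * hu + z ^ 2 * (u * (1 + z + z ^ 2) + z + z ^ 2) * e
      clear * - j
      grind)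
  have n2 : z * (1 + u) * d1 z u + u * (1 + z ^ 2) ≠ 0 := fun e => nz i
    (p := Z ^ 3 + Z ^ 2 * (1 + Z + Z ^ 2) + (1 + Z + Z ^ 2) ^ 2 * (Z ^ 3 + Z ^ 2 + Z + 1)) (by simp [hZ, r0]) (by
      simp only [d1, map_add, map_mul, map_pow, map_one, hz] at e ⊢
      refine mul_left_cancel₀ z0 ?_
      have : z ^ 2 + (1 + z + z ^ 2) * (1 + z ^ 2) + u * z * (1 + z + z ^ 2) = 0 := by
        linear_combination (norm := skip) z * e + (1 + z + z ^ 2) * hu
        clear * - j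
        grind
      linear_combination (norm := skip) (1 + z + z ^ 2) ^ 2 * hu +
        (z ^ 2 + (1 + z + z ^ 2) * (1 + z ^ 2) + (u + 1) * z * (1 + z + z ^ 2)) * this
      clear * - j
      grind)
  have q0 := nz i Q0
  have v1 : eval u (d1 (C z) X) = d1 z u := by simpa using map_d1 (evalRingHom u) (C z) X
  have v2 : eval u (Qf (C z) X) = Qf z u := by simpa using map_Qf (evalRingHom u) (C z) X
  have v3 : eval u (Pf c (C z) X) = Pf c z u := by simpa using map_Pf (evalRingHom u) c (C z) X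
  have v4 : Qf z u = 0 := by rw [Qf, show d1 u (z ^ 2) = 0 by rw [d1]; linear_combination hu, zero_mul]
  obtain ⟨a, b⟩ := descent (u := u) (D := C z ^ 2 * (X - C u + 1) * d1 (C z) X ^ 2 * C (ι Q)) (A := A.map ι)
    (by simp [v1, z0, n1, q0]) (by simpa [v1, v2, v3, v4, q0, Pf] using n2) (Eq.trans (by rw [Qf, e1]; ring) k)
  rw [Polynomial.map_eq_zero_iff i] at a b
  rintro (e | e)
  exacts [mo_ne e (hA ▸ a), mo_ne e (hB ▸ b)]

theorem fr {R : Type*} [CommRing R] [CharP R 2] {n D : ℕ} (x u : R) (s : Finset (Fin n × Fin D)) :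
    mo s x u ^ 16 = mo s (x ^ 16) (u ^ 16) := map_mo (iterateFrobenius _ 2 4) x u s

theorem hU {R : Type*} [CommRing R] {ρ k : ℕ} (hρ : ρ = 2 ^ k) (x : R) :
    (x ^ (128 * ρ ^ 2)) ^ 16 = x ^ 2 ^ (2 * (k + 5) + 1) := by rw [← pow_mul, hρ]; ring_nf

theorem few {F : Type*} [Field F] [Fintype F] [DecidableEq F] [j : CharP F 2] {m : ℕ} (hm : 11 ≤ m)
    (hq : ∀ x : F, x ^ 2 ^ (2 * m + 1) = x) (c : ℕ) :
    #{v : F | ts (2 * m + 1) (N2 c v (v ^ 2 ^ (m + 1)) / D2 v (v ^ 2 ^ (m + 1))) = 0} * 4 < 3 * 2 ^ (2 * m + 1) := by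
  obtain ⟨k, rfl⟩ : ∃ k, m = k + 5 := ⟨m - 5, by omega⟩
  obtain ⟨ρ, hρ⟩ : ∃ ρ, ρ = 2 ^ k := ⟨_, rfl⟩
  have ρ6 : 64 ≤ ρ := hρ ▸ Nat.pow_le_pow_right two_pos (show 6 ≤ k by omega)
  obtain ⟨W, hW⟩ : ∃ W : (ZMod 2)[X], W = X ^ 2 ^ (k + 5 + 1) := ⟨_, rfl⟩
  obtain ⟨Z, hZ⟩ : ∃ Z : (ZMod 2)[X], Z = X ^ 2 ^ (k + 5) := ⟨_, rfl⟩
  obtain ⟨P, hP⟩ : ∃ P, P = Pf c X W := ⟨_, rfl⟩
  obtain ⟨Q, hQ⟩ : ∃ Q, Q = Qf X W := ⟨_, rfl⟩
  have f := fl1 (R := ZMod 2)
  have dX : (X : (ZMod 2)[X]).natDegree ≤ 1 := natDegree_X_le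
  have dW : W.natDegree ≤ 64 * ρ := by rw [hW, hρ, natDegree_X_pow]; ring_nf; rfl
  have dZ : Z.natDegree ≤ 32 * ρ := by rw [hZ, hρ, natDegree_X_pow]; ring_nf; rfl
  have dP : P.natDegree ≤ 416 * ρ := hP ▸ (f.Pf c dX dW).trans (by omega)
  have dQ : Q.natDegree ≤ 416 * ρ := hQ ▸ (f.Qf dX dW).trans (by omega)
  have dd : (D2 Z X * Q ^ 8).natDegree ≤ 3520 * ρ := (f.mul (f.D2 dZ dX) (f.pow dQ 8)).trans (by omega)
  obtain ⟨s, t, h0, h⟩ := ex_aux (n := 8) (D := 1792 * ρ) (c := N2 c Z X * Q ^ 8 + D2 Z X * sN P Q 3)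
    ((f.add' (f.mul (f.N2 c dZ dX) (f.pow dQ 8)) (f.mul (f.D2 dZ dX) (f.sN dP dQ 3))).trans (by omega)) dd
    (by omega)
  have Q0 : Q.eval 0 = 1 := by simp [hQ, hW, Qf, d1]
  by_contra! g
  let := ZMod.algebra F 2
  have e := eq_zero_of_natDegree_lt_card_of_eval_eq_zero' (((mo s X (X ^ (128 * ρ ^ 2)) * Q ^ ρ +
    mo t X (X ^ (128 * ρ ^ 2)) * sN P Q k) * (D2 Z X * Q ^ 8)).map (algebraMap _ F)) _ (fun v hv => ?_)
    (natDegree_map_le.trans_lt (lt_of_mul_lt_mul_right (lt_of_lt_of_le ?_ g) (Nat.zero_le 4)))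
  rotate_left
  · have hv := (mem_filter.1 hv).2
    rw [eval_map_algebraMap, map_mul]
    by_cases n : aeval v (D2 Z X * Q ^ 8) = 0
    · rw [n, mul_zero]
    have n1 : aeval v (D2 Z X) ≠ 0 := fun e => n (by rw [map_mul, e, zero_mul])
    have n2 : aeval v Q ≠ 0 := fun e => n (by simp [e])
    have e1 := congrArg (aeval v) h
    have e2 := twist c (x := v) (w := v ^ 2 ^ (k + 5 + 1)) (by simpa [hQ, hW, map_Qf] using n2)
    obtain ⟨γ, hγ⟩ : ∃ γ, γ = N2 c v (v ^ 2 ^ (k + 5 + 1)) / D2 v (v ^ 2 ^ (k + 5 + 1)) := ⟨_, rfl⟩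
    have p : ∀ n, γ ^ 2 ^ n = N2 c (v ^ 2 ^ n) ((v ^ 2 ^ (k + 5 + 1)) ^ 2 ^ n) /
        D2 (v ^ 2 ^ n) ((v ^ 2 ^ (k + 5 + 1)) ^ 2 ^ n) := fun n => by
      have := congrArg (iterateFrobenius F 2 n) hγ
      rwa [map_div₀, map_N2, map_D2] at this
    have p1 := p (k + 5)
    have p2 := p (k + 5 + 1)
    rw [← pow_mul, ← pow_add, show k + 5 + 1 + (k + 5) = 2 * (k + 5) + 1 by ring, hq] at p1
    rw [← pow_mul, ← pow_add, show k + 5 + 1 + (k + 5 + 1) = 2 * (k + 5) + 1 + 1 by ring,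
      pow_succ 2 (2 * (k + 5) + 1), pow_mul, hq] at p2
    rw [← hγ, ← p2] at e2
    have e3 : ts (2 * (k + 5) + 1) γ = γ ^ 2 ^ (k + 5) + ts (4 + (k + 1)) (γ + γ ^ 2 ^ (k + 5 + 1)) := by
      rw [show 2 * (k + 5) + 1 = k + 5 + 1 + (k + 5) by ring, ts_add', ts, sum_range_succ, ← ts, ts_add,
        show 4 + (k + 1) = k + 5 by ring]
      ring
    rw [← hγ, e3, e2, ts_add', ts_pow, p1] at hv
    have q1 : aeval v P / aeval v Q = Pf c v (v ^ 2 ^ (k + 5 + 1)) / Qf v (v ^ 2 ^ (k + 5 + 1)) := by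
      rw [hP, hQ, map_Pf, map_Qf, hW, map_pow, aeval_X]
    have q2 : aeval v (N2 c Z X) / aeval v (D2 Z X) = N2 c (v ^ 2 ^ (k + 5)) v / D2 (v ^ 2 ^ (k + 5)) v := by
      rw [map_N2, map_D2, hZ, map_pow, aeval_X]
    rw [← q1, ← q2] at hv
    refine mul_eq_zero_of_left (pow_eq_zero_iff (n := 2 ^ 4) (by norm_num) |>.1 (mul_right_cancel₀ n ?_)) _
    simp only [map_add, map_mul, map_mo, map_pow, aeval_X, map_sN _ n2, map_zero] at e1 ⊢
    rw [add_pow_char_pow, mul_pow, mul_pow, mul_pow, show 2 ^ 4 = 16 from rfl, fr, fr, hU hρ, hq, ← hρ]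
    rw [← mul_div_cancel₀ (aeval v (N2 c Z X)) n1] at e1
    linear_combination (norm := skip) (aeval v Q ^ ρ) ^ 16 * e1 +
      mo t (v ^ 16) v * (aeval v Q ^ ρ) ^ 16 * aeval v (D2 Z X) * aeval v Q ^ 8 * hv
    clear * - j
    grind
  · have a := fun s : Finset (Fin 9 × Fin (1792 * ρ)) => f.mo dX (natDegree_X_pow_le (128 * ρ ^ 2)) s
    have := f.mul (f.add (f.mul (a s) (f.pow dQ ρ)) (f.mul (a t) ((f.sN dP dQ k).trans_eq (by rw [← hρ])))) dd
    rw [show 2 ^ (2 * (k + 5) + 1) = 2048 * ρ ^ 2 by rw [hρ]; ring]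
    nlinarith
  let K := AlgebraicClosure (FractionRing (ZMod 2)[X])
  obtain ⟨ι, i⟩ : ∃ ι : (ZMod 2)[X] →+* K, Function.Injective ι :=
    ⟨(algebraMap (FractionRing (ZMod 2)[X]) K).comp (algebraMap _ _),
      (algebraMap (FractionRing (ZMod 2)[X]) K).injective.comp (IsFractionRing.injective (ZMod 2)[X] _)⟩
  have : CharP K 2 := charP_of_injective_ringHom i 2
  have q0 := nz i Q0
  have Q1 : Q ≠ 0 := by rintro rfl; simp at Q0
  have D0 : D2 Z X ≠ 0 := fun e => by simpa [hZ, D2, d1] using congrArg (eval 0) e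
  rw [Polynomial.map_eq_zero_iff (RingHom.injective _), mul_eq_zero, or_iff_left (mul_ne_zero D0 (pow_ne_zero _ Q1))] at e
  have g := fl2 (R := ZMod 2)
  have gC : ∀ {n} {p : (ZMod 2)[X]}, p.natDegree ≤ n → ∀ i, ((C p).coeff i).natDegree ≤ n := fun h i => by
    rw [coeff_C]; split_ifs <;> simp [h]
  have gX : ∀ i, ((X : (ZMod 2)[X][X]).coeff i).natDegree ≤ 0 := fun i => by rw [coeff_X]; split_ifs <;> simp
  have gA := fun s : Finset (Fin 9 × Fin (1792 * ρ)) => g.mo (gC (natDegree_X_pow_le 16)) gX s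
  refine vanish i (pow_ne_zero _ two_ne_zero) (P := P ^ 16) (Q := Q ^ 16) (c := c) (by simp [Q0]) hZ rfl rfl
    (lift (q := 2 ^ (2 * (k + 5) + 1)) (fun n => ?_) (i ?_)) h0
  · have a := g.mul (g.mul (g.Qf (gC dZ) gX) (gC (f.pow dQ 16))) (g.add' (g.pow (gA s) 2) (g.mul (gA s) (gA t))) n
    have b := g.mul (g.add' (g.mul (g.Pf c (gC dZ) gX) (gC (f.pow dQ 16))) (g.mul (gC (f.pow dP 16))
      (g.Qf (gC dZ) gX))) (g.pow (gA t) 2) n
    rw [coeff_sub, show 2 ^ (2 * (k + 5) + 1) = 2048 * ρ * ρ by rw [hρ]; ring]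
    refine (natDegree_sub_le_of_le a b).trans_lt (lt_of_lt_of_le (by omega : _ < 2048 * ρ * 64) ?_)
    exact Nat.mul_le_mul_left _ ρ6
  have e1 := congrArg (fun x => ι x ^ 2 ^ 4) e
  obtain ⟨U, hV⟩ : ∃ U : (ZMod 2)[X], U = X ^ 2 ^ (2 * (k + 5) + 1) := ⟨_, rfl⟩
  have p1 : Pf c Z U = P ^ 2 ^ (k + 5) ∧ Qf Z U = Q ^ 2 ^ (k + 5) := by
    have a := map_Pf (iterateFrobenius _ 2 (k + 5)) c X W
    have b := map_Qf (iterateFrobenius _ 2 (k + 5)) X W
    simp only [iterateFrobenius_def] at a b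
    rw [hP, hQ, a, b, hZ, hV, hW, ← pow_mul, ← pow_add]
    exact ⟨by congr 3; ring, by congr 3; ring⟩
  have ev : ∀ p : (ZMod 2)[X][X], eval U p = evalRingHom U p := fun _ => rfl
  rw [← hV, ev]
  simp only [map_sub, map_add, map_mul, map_pow, map_mo, map_Qf (evalRingHom U), map_Pf (evalRingHom U),
    coe_evalRingHom, eval_C, eval_X, p1.1, p1.2, map_zero, map_sN _ q0] at e1 ⊢
  rw [add_pow_char_pow, mul_pow, mul_pow, mul_pow, show 2 ^ 4 = 16 from rfl, fr, fr, hU hρ, ← map_pow ι X (2 ^ _),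
    ← hV, ← hρ, zero_pow (by norm_num)] at e1
  have e2 : mo s (ι X ^ 16) (ι U) = mo t (ι X ^ 16) (ι U) * ts (k + 1) (ι P / ι Q) ^ 16 :=
    mul_right_cancel₀ (pow_ne_zero 16 (pow_ne_zero ρ q0)) (by
      linear_combination e1 - mo t (ι X ^ 16) (ι U) * ts (k + 1) (ι P / ι Q) ^ 16 * (ι Q ^ ρ) ^ 16 *
        CharTwo.two_eq_zero (R := K))
  have e3 := congrArg (· ^ 2 ^ 4) (ts_sq (k + 1) (ι P / ι Q))
  simp only [add_pow_char_pow, div_pow, pow_right_comm _ 2, ← pow_mul _ (2 ^ _), ← pow_add] at e3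
  rw [show k + 1 + 4 = k + 5 from rfl, show 2 ^ 4 = 16 from rfl, pow_mul] at e3
  rw [e2, ← mul_div_cancel₀ (ι P ^ 16) (pow_ne_zero 16 q0),
    ← mul_div_cancel₀ (ι P ^ 2 ^ (k + 5)) (pow_ne_zero (2 ^ (k + 5)) q0)]
  linear_combination mo t (ι X ^ 16) (ι U) ^ 2 * ι Q ^ 16 * ι Q ^ 2 ^ (k + 5) *
    (e3 + ts (k + 1) (ι P / ι Q) ^ 16 * CharTwo.two_eq_zero (R := K))

theorem ex_big {F : Type*} [Field F] [Fintype F] [CharP F 2] {m : ℕ} (hm : 11 ≤ m)
    (hF : Fintype.card F = 2 ^ (2 * m + 1)) : ∃ v : F, ts (2 * m + 1) (v * (v ^ 2 ^ (m + 1)) ^ 2) = 0 ∧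
      ts (2 * m + 1) (v * (1 + v ^ 2 ^ (m + 1)) / D2 v (v ^ 2 ^ (m + 1))) = 1 := by
  classical
  have hq : ∀ x : F, x ^ 2 ^ (2 * m + 1) = x := fun x => hF ▸ FiniteField.pow_card x
  by_contra! k
  have h0 := few hm hq 0
  have h1 := few hm hq 1
  let a : F → F := fun v => ts (2 * m + 1) (v * (v ^ 2 ^ (m + 1)) ^ 2)
  let b : F → F := fun v => ts (2 * m + 1) (v * (1 + v ^ 2 ^ (m + 1)) / D2 v (v ^ 2 ^ (m + 1)))
  have e1 : ∀ v, D2 v (v ^ 2 ^ (m + 1)) = 0 ∨ a v + b v = 0 →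
      ts (2 * m + 1) (N2 1 v (v ^ 2 ^ (m + 1)) / D2 v (v ^ 2 ^ (m + 1))) = 0 := fun v h => by
    by_cases n : D2 v (v ^ 2 ^ (m + 1)) = 0
    · simp [n, ts]
    · rw [← h.resolve_left n, ← ts_add, N2]
      congr 1
      field_simp
      ring
  simp only [N2, Nat.cast_zero, zero_mul, add_zero] at h0
  obtain ⟨S, hS, h0⟩ : ∃ S, _ = S ∧ #S * 4 < _ := ⟨_, rfl, h0⟩
  obtain ⟨R, hR, h1⟩ : ∃ S, _ = S ∧ #S * 4 < _ := ⟨_, rfl, h1⟩
  have c1 : S ∪ R = univ := eq_univ_of_forall fun v => by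
    simp only [← hS, ← hR, mem_union, mem_filter, mem_univ, true_and]
    refine (tr_cases hq _).imp_right fun e => e1 v (.inr ?_)
    rw [show b v = 1 from e, show a v = 1 from (tr_cases hq _).resolve_left fun z => k v z e,
      CharTwo.add_self_eq_zero]
  have c2 : ({v | a v = 0} : Finset F) ⊆ S ∩ R := fun v hv => by
    have z := (mem_filter.1 hv).2
    have e := (tr_cases hq _).resolve_right (k v z)
    simp only [← hS, ← hR, mem_inter, mem_filter, mem_univ, true_and]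
    exact ⟨e, e1 v (.inr (by rw [z, zero_add]; exact e))⟩
  have c3 : #{v | ¬ a v = 0} ≤ #{v | a v = 0} := card_le_card_of_injOn (· + 1) (fun v hv => by
    have z := (tr_cases hq _).resolve_left (mem_filter.1 hv).2
    have e := tr_two hq (m + 1 + 1) v
    simp only [coe_filter, mem_univ, true_and, Set.mem_ofPred_eq, a, add_pow_char_pow, one_pow]
    rw [show (v + 1) * (v ^ 2 ^ (m + 1) + 1) ^ 2 = v * (v ^ 2 ^ (m + 1)) ^ 2 + 1 + (v ^ 2 ^ (m + 1 + 1) + v) by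
      rw [pow_succ 2 (m + 1), pow_mul]; grind, ts_add, ts_add, z, e, tr_one, add_zero, CharTwo.add_self_eq_zero])
    (add_left_injective 1).injOn
  have c4 := card_filter_add_card_filter_not (s := univ) fun v => a v = 0
  have c5 := card_union_add_card_inter S R
  have c6 := card_le_card c2
  rw [c1] at c5
  rw [card_univ, hF] at c4 c5
  omega

end CF.Bk
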