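import Cfsg.Agent.Bk.P
import Cfsg.Agent.BN.SzMat

/-! Solving the two equations from two trace conditions. -/

set_option autoImplicit false

namespace CF.Bk
open CF.BN.Suz Finset

/-- partial traces -/
def ts {R : Type*} [CommRing R] (n : ℕ) (x : R) : R := ∑ i ∈ range n, x ^ 2 ^ i

/-- the first denominator -/
def d1 {R : Type*} [CommRing R] (v w : R) : R := 1 + w * (1 + v + v ^ 2)

section
variable {R : Type*} [CommRing R] [CharP R 2]

theorem ts_add (n : ℕ) (x y : R) : ts n (x + y) = ts n x + ts n y := by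
  simp only [ts, add_pow_char_pow, sum_add_distrib]

theorem ts_sq (n : ℕ) (x : R) : ts n x ^ 2 = ts n x + x + x ^ 2 ^ n := by
  have := sum_range_succ' (fun i => x ^ 2 ^ i) n
  rw [sum_range_succ] at this
  rw [ts, sum_pow_char]
  simp only [← pow_mul, ← pow_succ, pow_zero, pow_one] at this ⊢
  grind

theorem ts_pow (n k : ℕ) (x : R) : ts n (x ^ 2 ^ k) = ts n x ^ 2 ^ k := by
  simp only [ts, sum_pow_char_pow, ← pow_mul, mul_comm]

omit [CharP R 2] in
theorem ts_add' (n k : ℕ) (x : R) : ts (n + k) x = ts n x + ts k (x ^ 2 ^ n) := by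
  simp only [ts, sum_range_add, ← pow_mul, ← pow_add]

end

variable {F : Type*} [Field F] [i : CharP F 2] {m : ℕ} (hq : ∀ x : F, x ^ 2 ^ (2 * m + 1) = x)
include hq

theorem tr_sq (x : F) : ts (2 * m + 1) x ^ 2 = ts (2 * m + 1) x := by
  rw [ts_sq, hq]; grind

theorem tr_cases (x : F) : ts (2 * m + 1) x = 0 ∨ ts (2 * m + 1) x = 1 := by
  have := tr_sq hq x
  grind

theorem tr_pow (k : ℕ) (x : F) : ts (2 * m + 1) (x ^ 2 ^ k) = ts (2 * m + 1) x := by
  rw [ts_pow]
  rcases tr_cases hq x with e | e <;> simp [e]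

theorem tr_two (k : ℕ) (x : F) : ts (2 * m + 1) (x ^ 2 ^ k + x) = 0 := by
  rw [ts_add, tr_pow hq, CharTwo.add_self_eq_zero]

omit hq in
theorem tr_one : ts (2 * m + 1) (1 : F) = 1 := by simp [ts, CharTwo.two_eq_zero]

theorem tr_sol {T : Tits F} {x : F} (h : ts (2 * m + 1) x = 0) : ∃ u, T.θ u + u = x := by
  have : ∀ k, (∑ i ∈ range k, x ^ 2 ^ (2 * i)) ^ 2 + ∑ i ∈ range k, x ^ 2 ^ (2 * i) = ts (2 * k) x := by
    intro k
    induction k with
    | zero => simp [ts]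
    | succ k ih =>
      rw [sum_range_succ, mul_add, ts, sum_range_succ, sum_range_succ, ← ts, ← ih, pow_succ 2 (2 * k), pow_mul x]
      grind
  have e := this (m + 1)
  generalize ∑ i ∈ range (m + 1), x ^ 2 ^ (2 * i) = u at e
  rw [mul_add, ts, sum_range_succ, ← ts, h, hq, zero_add] at e
  exact ⟨T.θ u + u, by rw [map_add, T.θθ]; grind⟩

theorem tower [Finite F] {T : Tits F} (hθ : ∀ x, T.θ x = x ^ 2 ^ (m + 1)) {v : F}
    (h1 : ts (2 * m + 1) (v * T.θ v ^ 2) = 0)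
    (h2 : ts (2 * m + 1) (v * (1 + T.θ v) / (d1 v (T.θ v) * d1 (T.θ v) (v ^ 2))) = 1) :
    ∃ y b, Ex.Ps.ev (y, T.θ y, b, T.θ b) = 0 ∧ Ex.La.ev (y, T.θ y, b, T.θ b) = 0 ∧ b ≠ 0 ∧
      b + y * T.θ y ≠ 0 := by
  obtain ⟨w, hw⟩ : ∃ w, T.θ v = w := ⟨_, rfl⟩
  have hw2 : T.θ w = v ^ 2 := hw ▸ T.θθ v
  have t2 : ∀ u, ts (2 * m + 1) (T.θ u + u) = 0 := fun u => hθ u ▸ tr_two hq _ u
  rw [hw] at h1 h2
  have n : v * (1 + w) / (d1 v w * d1 w (v ^ 2)) ≠ 0 := fun e => by simp [e, ts] at h2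
  simp only [ne_eq, div_eq_zero_iff, mul_eq_zero, not_or] at n
  obtain ⟨⟨v0, w1⟩, n1, n2⟩ := n
  have w0 : w ≠ 0 := hw ▸ mt T.θ_eq_zero.1 v0
  have v1 : 1 + v ≠ 0 := fun e => w1 (by simpa [hw] using congrArg T.θ e)
  have v2 : 1 + v ^ 2 ≠ 0 := by clear * - i v1; grind
  let g : F → F := fun A => (1 + v * w) * (1 + w) * w * (1 + v ^ 2) / (A * T.θ A) + (1 + v) * (1 + w) / A
  have k : ∀ A, T.θ A + A = v + w + v ^ 2 * w + v * w ^ 2 + v ^ 2 * w ^ 2 →
      A * (A + 1) = v * (1 + w) * (1 + v) * d1 v w ∧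
        T.θ A * (T.θ A + 1) = w * (1 + v ^ 2) * (1 + w) * d1 w (v ^ 2) := fun A e => by
    have e2 := congrArg T.θ e
    simp only [map_add, map_mul, map_pow, hw, hw2, T.θθ] at e2
    have e3 := congrArg T.θ e2
    simp only [map_add, map_mul, map_pow, hw, hw2, T.θθ] at e3
    simp only [d1]
    clear * - i e e2 e3
    constructor <;> grind
  obtain ⟨A, hA, hg⟩ : ∃ A, T.θ A + A = v + w + v ^ 2 * w + v * w ^ 2 + v ^ 2 * w ^ 2 ∧
      ts (2 * m + 1) (g A) = 0 := by
    obtain ⟨A, hA⟩ := tr_sol hq (T := T) (x := v + w + v ^ 2 * w + v * w ^ 2 + v ^ 2 * w ^ 2) (by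
      have a := t2 v
      have b := t2 (v ^ 2 * w)
      rw [map_mul, map_pow, hw, hw2] at b
      rw [hw] at a
      rw [show v + w + v ^ 2 * w + v * w ^ 2 + v ^ 2 * w ^ 2 = w + v + (w ^ 2 * v ^ 2 + v ^ 2 * w) + v * w ^ 2 by
        ring, ts_add, ts_add, a, b, h1]
      simp)
    obtain ⟨k1, k2⟩ := k A hA
    have p1 : A * (A + 1) ≠ 0 := by rw [k1]; positivity
    have p2 : T.θ A * (T.θ A + 1) ≠ 0 := by rw [k2]; positivity
    simp only [ne_eq, mul_eq_zero, not_or] at p1 p2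
    have e : g A + g (A + 1) = v * (1 + w) / (d1 v w * d1 w (v ^ 2)) := by
      obtain ⟨p1, p3⟩ := p1
      obtain ⟨p2, p4⟩ := p2
      have : g A + g (A + 1) = (1 + v * w) * (1 + w) * w * (1 + v ^ 2) * (1 + (T.θ A + A)) /
          (A * (A + 1) * (T.θ A * (T.θ A + 1))) + (1 + v) * (1 + w) / (A * (A + 1)) := by
        simp only [g, map_add, map_one]
        field_simp
        clear * - i
        grind
      rw [this, hA, k1, k2]
      field_simp
      simp only [d1]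
      clear * - i
      grind
    rw [← e, ts_add] at h2
    rcases tr_cases hq (g A) with a | a
    · exact ⟨A, hA, a⟩
    · exact ⟨A + 1, by rw [map_add, map_one, ← hA]; clear * - i; grind, by simpa [a] using h2⟩
  obtain ⟨k1, k2⟩ := k A hA
  have A0 : A ≠ 0 := left_ne_zero_of_mul (by rw [k1]; positivity)
  have B0 := mt T.θ_eq_zero.1 A0
  obtain ⟨y, hy⟩ := Finite.injective_iff_surjective.1 T.θ.injective (A / (v * (1 + w)))
  obtain ⟨c, hc⟩ := tr_sol hq (T := T) hg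
  obtain ⟨z, hz⟩ : ∃ z, T.θ y = z := ⟨_, rfl⟩
  have hz2 : T.θ z = y ^ 2 := hz ▸ T.θθ y
  obtain rfl : A = z * (v * (1 + w)) := by rw [← hz, hy]; field_simp
  have z0 : z ≠ 0 := left_ne_zero_of_mul A0
  have y0 : y ≠ 0 := fun e => z0 (by simp [← hz, e])
  simp only [g, map_mul, map_add, map_one, hw, hw2, hz2] at hA hc
  replace hc : z * y ^ 2 * v * (T.θ c + c) = 1 + y ^ 2 + v * w + y ^ 2 * v := by
    rw [hc]; field_simp; clear * - i; grind
  have hA2 := congrArg T.θ hA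
  have hc2 := congrArg T.θ hc
  simp only [map_mul, map_add, map_one, map_pow, hw, hw2, hz, hz2, T.θθ] at hA2 hc2
  have I1 : z * w * (1 + y ^ 2 + v * w + y ^ 2 * v) + v * (1 + z ^ 2 + w * v ^ 2 + z ^ 2 * w) +
      (z + v + 1) * v * w = 0 := mul_left_cancel₀ (mul_ne_zero v1 w1) (by
    linear_combination (norm := skip) (w * z + z + 1) * hA + hA2; clear * - i; grind)
  have I2 : (1 + y ^ 2 + v * w + y ^ 2 * v) * (v * z + v + 1) + v * (z * v + z + v ^ 2) = 0 :=
    mul_left_cancel₀ (mul_ne_zero w0 (mul_ne_zero v1 w1)) (by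
      linear_combination (norm := skip) (v * w * z + v * w + v * z + v + w) * hA + hA2
      clear * - i; grind)
  have e1 : y ^ 2 * z ^ 2 * (c ^ 2 + c) = z + v + 1 := mul_left_cancel₀ (mul_ne_zero v0 w0) (by
    linear_combination (norm := skip) z * w * hc + v * hc2 + I1; clear * - i; grind)
  have e2 := congrArg T.θ e1
  simp only [map_mul, map_add, map_one, map_pow, hw, hz, hz2] at e2
  have r0 : z + v + 1 ≠ 0 := fun r => by
    obtain rfl : z = v + 1 := by clear * - i r; grind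
    have a : w = v ^ 2 + v := mul_left_cancel₀ (mul_ne_zero v0 (mul_ne_zero w1 v1)) (by
      simp only [d1] at k1; linear_combination (norm := skip) k1; clear * - i; grind)
    have b := congrArg T.θ a
    rw [map_add, map_pow, hw, hw2] at b
    have : v * (1 + w) / (d1 v w * d1 w (v ^ 2)) = v ^ 2 ^ 1 + v := by
      rw [div_eq_iff (mul_ne_zero n1 n2)]
      simp only [d1]
      subst a
      clear * - b i
      grind
    rw [this, tr_two hq] at h2
    exact zero_ne_one h2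
  refine ⟨y, y * z * c, ?_, ?_, fun e => r0 ?_, fun e => r0 ?_⟩
  · simp only [Ex.Ps, Ex.G, Ex.S, Ex.ev_add, Ex.ev_mul, Ex.ev_one, Ex.ev_y, Ex.ev_z, Ex.ev_b, Ex.ev_B, map_mul,
      hz, hz2]
    linear_combination (norm := skip) hc + v * e2 + (1 + z * y ^ 2 * T.θ c * (z * y ^ 2 * T.θ c + y * y * z) +
      y * (y * z * c) + z * y ^ 2 * T.θ c) * e1
    clear * - i; grind
  · simp only [Ex.La, Ex.G, Ex.ev_add, Ex.ev_mul, Ex.ev_one, Ex.ev_y, Ex.ev_z, Ex.ev_b, Ex.ev_B, map_mul,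
      hz, hz2]
    refine mul_left_cancel₀ v0 ?_
    linear_combination (norm := skip) I2 + (v * z + v + 1) * hc +
      v * (z * y ^ 2 * T.θ c * (z + 1) + y * z * c * (y * z * c + y) + v + 1) * e1
    clear * - i; grind
  · linear_combination y * z * (c + 1) * e - e1
  · rw [hz] at e; linear_combination y * z * c * e - e1

end CF.Bk
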