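import Cfsg.Agent.Bk.S
import Cfsg.Agent.Bk.St
import Cfsg.Agent.BN.SzModels

/-! Small fields by computation, and the Suzuki groups. -/

set_option autoImplicit false

namespace CF.Bk
open CF.BN.Suz Finset Polynomial

/-- the value at `t` of the polynomial with the lowest `k` bits of `n` as coefficients -/
def bv {R : Type*} [CommRing R] (t : R) : ℕ → ℕ → R
  | 0, _ => 0
  | k + 1, n => (n % 2 : ℕ) + t * bv t k (n / 2)

/-- multiplication modulo `f` -/
def ml (f d a : ℕ) : ℕ → ℕ → ℕ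
  | 0, _ => 0
  | k + 1, b => (2 * ml f d a k (b / 2) ^^^ if (2 * ml f d a k (b / 2)).testBit d then f else 0) ^^^
      if b % 2 = 1 then a else 0

/-- iterated squaring -/
def sqn (f d : ℕ) : ℕ → ℕ → ℕ
  | 0, a => a
  | k + 1, a => sqn f d k (ml f d a d a)

/-- partial traces -/
def trn (f d : ℕ) : ℕ → ℕ → ℕ
  | 0, _ => 0
  | k + 1, a => a ^^^ trn f d k (ml f d a d a)

section
variable {R : Type*} [CommRing R] {t : R}

theorem map_bv {S : Type*} [CommRing S] (φ : R →+* S) (k n : ℕ) : φ (bv t k n) = bv (φ t) k n := by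
  induction k generalizing n <;> simp [bv, *]

theorem bv_zero (k : ℕ) : bv t k 0 = 0 := by induction k <;> simp [bv, *]

theorem bv_one (k : ℕ) : bv t (k + 1) 1 = 1 := by simp [bv, bv_zero]

theorem bv_deg (k n : ℕ) : (bv (X : R[X]) (k + 1) n).natDegree ≤ k := by
  induction k generalizing n with
  | zero => simp only [bv, mul_zero, add_zero, natDegree_natCast, le_refl]
  | succ k ih => exact (fl1.add' (fl1.cast _) (fl1.mul natDegree_X_le (ih _))).trans (by omega)

theorem bv_succ (k n : ℕ) : bv t (k + 1) n = bv t k n + if n.testBit k then t ^ k else 0 := by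
  induction k generalizing n with
  | zero => rcases Nat.mod_two_eq_zero_or_one n with h | h <;> simp [bv, h]
  | succ k ih =>
    rw [bv, ih, bv, Nat.testBit_succ]
    split_ifs <;> ring

variable [CharP R 2]

theorem bv_xor (k a b : ℕ) : bv t k (a ^^^ b) = bv t k a + bv t k b := by
  induction k generalizing a b with
  | zero => simp [bv]
  | succ k ih =>
    rw [bv, bv, bv, Nat.xor_div_two, ih, Nat.xor_mod_two_eq]
    rcases Nat.mod_two_eq_zero_or_one a with h | h <;> rcases Nat.mod_two_eq_zero_or_one b with h' | h' <;>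
      simp [h, h', Nat.add_mod] <;> grind

variable {f d : ℕ} (h : bv t d f = t ^ d)
include h

theorem bv_ml (a k b : ℕ) : bv t d (ml f d a k b) = bv t d a * bv t k b := by
  induction k generalizing b with
  | zero => simp [bv, ml, bv_zero]
  | succ k ih =>
    have e := bv_succ (t := t) d (2 * ml f d a k (b / 2))
    rw [bv, Nat.mul_mod_right, Nat.mul_div_cancel_left _ two_pos, ih] at e
    rw [ml, bv_xor, bv_xor, bv]
    rcases Nat.mod_two_eq_zero_or_one b with h' | h' <;> split_ifs at e ⊢ <;> simp_all [bv_zero] <;> grind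

theorem bv_sqn (k a : ℕ) : bv t d (sqn f d k a) = bv t d a ^ 2 ^ k := by
  induction k generalizing a with
  | zero => simp [sqn]
  | succ k ih => rw [sqn, ih, bv_ml h]; ring

theorem bv_trn (k a : ℕ) : bv t d (trn f d k a) = ts k (bv t d a) := by
  induction k generalizing a with
  | zero => simp [trn, ts, bv_zero]
  | succ k ih => rw [trn, bv_xor, ih, bv_ml h, add_comm k, ts_add', ← pow_two]; simp [ts]

end

theorem ex_root {F : Type*} [Field F] [Fintype F] [CharP F 2] {n d f : ℕ} (hF : Fintype.card F = 2 ^ n)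
    (h : sqn f (d + 2) n 2 = 2) : ∃ t : F, bv t (d + 2) f = t ^ (d + 2) := by
  have m : (X ^ (d + 2) - bv X (d + 2) f : F[X]).natDegree = d + 2 := by
    rw [natDegree_sub_eq_left_of_natDegree_lt] <;> rw [natDegree_X_pow]
    exact (bv_deg _ _).trans_lt (by omega)
  let ι := algebraMap F (AlgebraicClosure F)
  obtain ⟨τ, hτ⟩ := IsAlgClosed.exists_eval₂_eq_zero ι (X ^ (d + 2) - bv X (d + 2) f)
    (natDegree_pos_iff_degree_pos.1 (by omega)).ne'
  have e : bv τ (d + 2) f = τ ^ (d + 2) := by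
    have := map_bv (t := X) (eval₂RingHom ι τ) (d + 2) f
    simp only [coe_eval₂RingHom, eval₂_X] at this
    rw [eval₂_sub, this, eval₂_X_pow, sub_eq_zero] at hτ
    exact hτ.symm
  have e2 := bv_sqn e n 2
  rw [h, show bv τ (d + 2) 2 = τ by simp [bv, bv_zero], ← hF] at e2
  classical
  have e3 := congrArg (eval₂ ι τ) (prod_multiset_X_sub_C_of_monic_of_roots_card_eq
    (p := (X ^ Fintype.card F - X : F[X])) (monic_X_pow_sub (by simpa using Fintype.one_lt_card (α := F))) (by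
    rw [FiniteField.roots_X_pow_card_sub_X, FiniteField.X_pow_card_sub_X_natDegree_eq F (Fintype.one_lt_card (α := F))]; rfl))
  rw [eval₂_sub, eval₂_X_pow, eval₂_X, ← e2, sub_self, eval₂_multiset_prod, Multiset.prod_eq_zero_iff] at e3
  simp only [Multiset.map_map, Multiset.mem_map, Function.comp, eval₂_sub, eval₂_X, eval₂_C, sub_eq_zero] at e3
  obtain ⟨a, -, rfl⟩ := e3
  exact ⟨a, ι.injective (by rw [map_bv, e, map_pow])⟩

/-- the two trace conditions at a root of `f` -/
def chk (m f i : ℕ) : Prop :=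
  let d := 2 * m + 3
  let g := fun a b => ml f d a d b
  let w := sqn f d (m + 2) 2
  let e := fun a b => 1 ^^^ g b (1 ^^^ a ^^^ g a a)
  sqn f d d 2 = 2 ∧ trn f d d (g 2 (g w w)) = 0 ∧ g (g (e 2 w) (e w (g 2 2))) i = 1 ∧
    trn f d d (g (g 2 (1 ^^^ w)) i) = 1

theorem ex_small {F : Type*} [Field F] [Fintype F] [CharP F 2] {m f i : ℕ}
    (hF : Fintype.card F = 2 ^ (2 * (m + 1) + 1)) (h : chk m f i := by unfold chk; decide +kernel) :
    ∃ v : F, ts (2 * (m + 1) + 1) (v * (v ^ 2 ^ (m + 1 + 1)) ^ 2) = 0 ∧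
      ts (2 * (m + 1) + 1) (v * (1 + v ^ 2 ^ (m + 1 + 1)) / D2 v (v ^ 2 ^ (m + 1 + 1))) = 1 := by
  obtain ⟨a, b, c, e⟩ := h
  obtain ⟨t, ht⟩ := ex_root (d := 2 * m + 1) hF a
  replace b := congrArg (bv t (2 * m + 3)) b
  replace c := congrArg (bv t (2 * m + 3)) c
  replace e := congrArg (bv t (2 * m + 3)) e
  simp only [bv_trn ht, bv_ml ht, bv_sqn ht, bv_xor, bv_zero, bv_one, show bv t (2 * m + 3) 2 = t by
    simp [bv, bv_zero], ← pow_two] at b c e
  exact ⟨t, b, by rwa [div_eq_mul_inv, ← eq_inv_of_mul_eq_one_right (a := D2 t _) c]⟩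

section
variable {F : Type*} [Field F] {T : Tits F} {G : Type*} [Group G] {D : SzData T G} {t : F}

/-- entries of a packed matrix -/
def en (a : ℕ) (i j : Fin 4) : ℕ := a / 8 ^ (4 * i.1 + j.1) % 8

/-- the matrix of `g` is packed in `a` -/
def Rp8 (D : SzData T G) (t : F) (g : G) (a : ℕ) : Prop := ∀ i j, D.ρ g i j = bv t 3 (en a i j)

variable (h : bv t 3 11 = t ^ 3)
include h

theorem Rp8.mul {g k : G} {a b : ℕ} (x : Rp8 D t g a) (y : Rp8 D t k b) (c : ℕ)
    (e : ∀ i j, ml 11 3 (en a i 0) 3 (en b 0 j) ^^^ ml 11 3 (en a i 1) 3 (en b 1 j) ^^^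
      ml 11 3 (en a i 2) 3 (en b 2 j) ^^^ ml 11 3 (en a i 3) 3 (en b 3 j) = en c i j := by decide +kernel) :
    Rp8 D t (g * k) c := fun i j => by
  have := T.charP
  simp only [map_mul, Matrix.mul_apply, Fin.sum_univ_four, ← e, bv_xor, bv_ml h, x _ _, y _ _]

theorem Rp8.u (hθ : ∀ x, T.θ x = x ^ 2 ^ 2) (a b c : ℕ)
    (e : ∀ i j, ![![1, a, b ^^^ ml 11 3 (sqn 11 3 2 a) 3 a, ml 11 3 a 3 b ^^^
      ml 11 3 (sqn 11 3 2 a) 3 (ml 11 3 a 3 a) ^^^ sqn 11 3 2 b], ![0, 1, sqn 11 3 2 a, b], ![0, 0, 1, a],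
      ![0, 0, 0, 1]] i j = en c i j := by decide +kernel) : Rp8 D t (D.u (bv t 3 a) (bv t 3 b)) c := fun i j => by
  have := T.charP
  rw [← e, D.ρ_u]
  fin_cases i <;> fin_cases j <;>
    simp [Tits.uM, Tits.f_def, hθ, bv_xor, bv_ml h, bv_sqn h, bv_zero, bv_one, pow_two]

omit h in
theorem Rp8.w : Rp8 D t D.w 68853957120 := fun i j => by
  rw [D.ρ_w, show en 68853957120 i j = ![![0, 0, 0, 1], ![0, 0, 1, 0], ![0, 1, 0, 0], ![1, 0, 0, 0]] i j by
    revert i j; decide +kernel]
  fin_cases i <;> fin_cases j <;> simp [wM, bv_zero, bv_one]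

omit h in
theorem Rp8.eq {g k : G} {a : ℕ} (x : Rp8 D t g a) (y : Rp8 D t k a) : g = k :=
  D.inj (Matrix.ext fun i j => (x i j).trans (y i j).symm)

theorem sz8 (D : SzData T G) (hθ : ∀ x, T.θ x = x ^ 2 ^ 2) : ¬ Law G := fun L => by
  have := T.charP
  have x := (Rp8.u (D := D) h hθ 1 2 35194040257225).mul h .w 68870775389
  have a := Rp8.u (D := D) h hθ 4 4 35219814516705
  have u := (a.mul h .w 68921148219).mul h a 138637183436483
  have x' := Rp8.w.mul h (Rp8.u (D := D) h hθ 1 (2 ^^^ ml 11 3 (sqn 11 3 2 1) 3 1) 35194042354313) 185363408880128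
  have a' := Rp8.u (D := D) h hθ 4 (4 ^^^ ml 11 3 (sqn 11 3 2 4) 3 4) 35219820807969
  rw [bv_xor, bv_ml h, bv_sqn h, ← hθ, ← D.u_inv] at x' a'
  have u' := a'.mul h (Rp8.w.mul h a' 125475464937984) 125418354112027
  rw [← D.w_inv, ← mul_inv_rev] at x' u'
  rw [← mul_inv_rev] at u'
  have r := L.eq_one ((((((((u.mul h x' 129967923004739).mul h x' 280622463974522).mul h u' 236888516098615).mul h x
    251440000687716).mul h u 256304462023746).mul h x 50304697455806).eq
    (((((x'.mul h x' 48230667393673).mul h u' 206522752313722).mul h x 187562854983013).mul h x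
      55196575619691).mul h u 50304697455806)))
  have := u 3 0
  rw [r, show en 138637183436483 3 0 = 1 by decide +kernel, bv_one] at this
  simp at this

end

theorem sz_law {F : Type*} [Field F] [Fintype F] {m : ℕ} (hm : 1 ≤ m) (hF : Fintype.card F = 2 ^ (2 * m + 1))
    {G : Type*} [Group G] (D : SzData (titsOfCard F m hF) G) : ¬ Law G := by
  have := charP_of_card hF
  by_cases m1 : m = 1
  · subst m1
    obtain ⟨t, ht⟩ := ex_root (d := 1) (f := 11) hF (by decide +kernel)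
    exact sz8 ht D (titsOfCard_θ hF)
  obtain ⟨v, a, b⟩ : ∃ v : F, ts (2 * m + 1) (v * (v ^ 2 ^ (m + 1)) ^ 2) = 0 ∧
      ts (2 * m + 1) (v * (1 + v ^ 2 ^ (m + 1)) / D2 v (v ^ 2 ^ (m + 1))) = 1 := by
    by_cases k : 11 ≤ m
    · exact ex_big k hF
    obtain rfl | rfl | rfl | rfl | rfl | rfl | rfl | rfl | rfl :
      m = 2 ∨ m = 3 ∨ m = 4 ∨ m = 5 ∨ m = 6 ∨ m = 7 ∨ m = 8 ∨ m = 9 ∨ m = 10 := by omega
    exacts [ex_small (m := 1) (f := 59) (i := 12) hF, ex_small (m := 2) (f := 137) (i := 126) hF,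
      ex_small (m := 3) (f := 563) (i := 329) hF, ex_small (m := 4) (f := 2053) (i := 584) hF,
      ex_small (m := 5) (f := 8435) (i := 1609) hF, ex_small (m := 6) (f := 32975) (i := 8173) hF,
      ex_small (m := 7) (f := 131087) (i := 54802) hF, ex_small (m := 8) (f := 524399) (i := 154567) hF,
      ex_small (m := 9) (f := 2097215) (i := 1830364) hF]
  obtain ⟨y, c, h0, h1, h2, h3⟩ := tower (fun x => hF ▸ FiniteField.pow_card x) (titsOfCard_θ hF) a b
  exact sz_of D h0 h1 h2 h3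

end CF.Bk
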